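import Cfsg.Agent.H309.Ru.Basic
import Mathlib.GroupTheory.GroupAction.Quotient
import Mathlib.GroupTheory.Index
import Mathlib.GroupTheory.IndexNormal
import Mathlib.Algebra.BigOperators.Finprod
import Mathlib.Data.Set.Card
import Mathlib.Tactic.Group
import Mathlib.GroupTheory.Perm.Sign
import Mathlib.GroupTheory.Subgroup.Centralizer
import Cfsg.Agent.StdL2.G23Aut
set_option linter.all false

-- part: H309/Ru/SylC
section
/-!
# S3204: Sylow subgroups of normalized subgroups, conjugates of `Z` (helper309)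
-/

set_option autoImplicit false

namespace Cfsg.Agent.H309.Ru

open Subgroup Pointwise

variable {G : Type*} [Group G]

/-- If the Sylow subgroup `S` normalizes `C`, then every `p`-subgroup of `C` is `C`-conjugate into `S ⊓ C`. -/
theorem exists_conj_le_inf [Finite G] {p : ℕ} [Fact p.Prime] (S : Sylow p G) (C : Subgroup G)
    (hSC : (S : Subgroup G) ≤ normalizer (C : Set G)) (Q : Subgroup G) (hQ : IsPGroup p Q) (hQC : Q ≤ C) :
    ∃ c ∈ C, MulAut.conj c • Q ≤ (S : Subgroup G) ⊓ C := by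
  have h1 := card_sup_mul hSC
  obtain ⟨k, hk⟩ := card_dvd_of_le (le_sup_left : (S : Subgroup G) ≤ (S : Subgroup G) ⊔ C)
  have hSpos : 0 < Nat.card S := Nat.card_pos
  have hIpos : 0 < Nat.card ((S : Subgroup G) ⊓ C : Subgroup G) := Nat.card_pos
  have h2 : Nat.card C = Nat.card ((S : Subgroup G) ⊓ C : Subgroup G) * k := by
    rw [hk] at h1
    have h3 : Nat.card S * (k * Nat.card ((S : Subgroup G) ⊓ C : Subgroup G)) = Nat.card S * Nat.card C := by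
      rw [← mul_assoc]; exact h1
    rw [mul_comm, ← Nat.eq_of_mul_eq_mul_left hSpos h3]
  have h4 : k ∣ (S : Subgroup G).index := by
    have h5 := ((S : Subgroup G) ⊔ C).card_mul_index
    rw [← (S : Subgroup G).card_mul_index, hk, mul_assoc] at h5
    exact ⟨_, (Nat.eq_of_mul_eq_mul_left hSpos h5).symm⟩
  have hp : ¬ p ∣ k := fun h => S.not_dvd_index (h.trans h4)
  set P1 : Subgroup C := ((S : Subgroup G) ⊓ C).subgroupOf C with hP1
  have hP1p : IsPGroup p P1 := by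
    refine (S.2.to_le (inf_le_left : (S : Subgroup G) ⊓ C ≤ (S : Subgroup G))).of_equiv
      (subgroupOfEquivOfLe inf_le_right).symm
  have hidx : P1.index = k := by
    have h5 := P1.card_mul_index
    have h6 : Nat.card P1 = Nat.card ((S : Subgroup G) ⊓ C : Subgroup G) :=
      Nat.card_congr (subgroupOfEquivOfLe inf_le_right).toEquiv
    rw [h6, h2] at h5
    exact Nat.eq_of_mul_eq_mul_left hIpos h5
  have hQ1 : IsPGroup p (Q.subgroupOf C) := hQ.of_equiv (subgroupOfEquivOfLe hQC).symm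
  obtain ⟨R, hR⟩ := hQ1.exists_le_sylow
  obtain ⟨c, hc⟩ := MulAction.exists_smul_eq C R (hP1p.toSylow (by rwa [hidx]))
  refine ⟨c, c.2, ?_⟩
  intro x hx
  rw [mem_conj_smul] at hx
  have hxC : x ∈ C := by
    have := C.mul_mem (C.mul_mem c.2 (hQC hx)) (C.inv_mem c.2)
    simpa [mul_assoc] using this
  have hy : (⟨(c : G)⁻¹ * x * c, hQC hx⟩ : C) ∈ (R : Subgroup C) := hR (by
    rw [mem_subgroupOf]; exact hx)
  have hz : (⟨x, hxC⟩ : C) ∈ ((c • R : Sylow p C) : Subgroup C) := by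
    rw [Sylow.coe_subgroup_smul, mem_conj_smul]
    exact hy
  rw [hc] at hz
  exact mem_subgroupOf.1 hz

theorem exists_conj_eq_inf [Finite G] {p : ℕ} [Fact p.Prime] (S : Sylow p G) (C : Subgroup G)
    (hSC : (S : Subgroup G) ≤ normalizer (C : Set G)) (Q : Subgroup G) (hQ : IsPGroup p Q) (hQC : Q ≤ C)
    (hc : Nat.card ((S : Subgroup G) ⊓ C : Subgroup G) ≤ Nat.card Q) :
    ∃ c ∈ C, MulAut.conj c • Q = (S : Subgroup G) ⊓ C := by
  obtain ⟨c, hc', h⟩ := exists_conj_le_inf S C hSC Q hQ hQC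
  refine ⟨c, hc', eq_of_le_of_card_le h ?_⟩
  rw [card_conj_smul]; exact hc

namespace Hyp

variable [Finite G] {T T1 T2 W Z4 Z Z2 Z1 : Subgroup G} (h : Hyp T T1 T2 W Z4 Z Z2 Z1)
include h

theorem pW : IsPGroup 2 W := IsPGroup.of_card (n := 11) (by rw [h.cW]; norm_num)
theorem pT2 : IsPGroup 2 T2 := IsPGroup.of_card (n := 13) (by rw [h.cT2]; norm_num)

variable (S : Sylow 2 G) (hS : (S : Subgroup G) = T)
include hS

theorem conjZ_of_le {g : G} (hg : MulAut.conj g • W ≤ normalizer (Z : Set G)) :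
    MulAut.conj g • Z = Z := by
  have : Fact (Nat.Prime 2) := ⟨Nat.prime_two⟩
  obtain ⟨n, hn, hle⟩ := exists_conj_le S (normalizer (Z : Set G)) (by rw [hS]; exact h.TNZ)
    (MulAut.conj g • W) (isPGroup_conj_smul h.pW) hg
  rw [hS, ← conj_mul_smul] at hle
  have h1 := h.conjZ_of_conjW (h.weak hle)
  rw [conj_mul_smul] at h1
  have h2 := mem_normalizer_iff_conj.1 hn
  have h3 : MulAut.conj n • MulAut.conj g • Z = MulAut.conj n • Z := by rw [h1, h2]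
  exact conj_smul_inj.1 h3

theorem conjZ_of_le' {g : G} (hg : W ≤ normalizer ((MulAut.conj g • Z : Subgroup G) : Set G)) :
    MulAut.conj g • Z = Z := by
  have h1 : MulAut.conj g⁻¹ • W ≤ normalizer (Z : Set G) := by
    rw [← conj_smul_normalizer] at hg
    have := conj_smul_mono (g := g⁻¹) hg
    rwa [conj_inv_smul_smul] at this
  have h2 := h.conjZ_of_le S hS h1
  rw [← h2, conj_smul_inv_smul, h2]

/-- If `N(Z)` normalizes `Z1`, so does `N(Z2)`. -/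
theorem NZ2_le (hM1 : normalizer (Z : Set G) ≤ normalizer (Z1 : Set G)) :
    normalizer (Z2 : Set G) ≤ normalizer (Z1 : Set G) := by
  have : Fact (Nat.Prime 2) := ⟨Nat.prime_two⟩
  intro n hn
  set C : Subgroup G := centralizer (Z2 : Set G) with hC
  have hNC : normalizer (Z2 : Set G) ≤ normalizer (C : Set G) := by
    intro x hx
    apply mem_normalizer_of_conj
    intro c hc
    rw [hC, mem_centralizer_iff] at hc ⊢
    intro z hz
    have h1 := conj_of_mem_normalizer' hx hz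
    have h2 := hc _ h1
    calc z * (x * c * x⁻¹) = x * ((x⁻¹ * z * x) * c) * x⁻¹ := by group
      _ = x * (c * (x⁻¹ * z * x)) * x⁻¹ := by rw [h2]
      _ = (x * c * x⁻¹) * z := by group
  have hT2 : (S : Subgroup G) ⊓ C = T2 := by
    rw [hS]
    ext x
    rw [h.memT2, mem_inf, hC, mem_centralizer_iff]
    constructor
    · rintro ⟨h1, h2⟩
      exact ⟨h1, fun z hz => (h2 z hz).symm⟩
    · rintro ⟨h1, h2⟩
      exact ⟨h1, fun z hz => (h2 z hz).symm⟩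
  have hT2C : T2 ≤ C := by rw [← hT2]; exact inf_le_right
  have hnC := mem_normalizer_iff_conj.1 (hNC hn)
  obtain ⟨c, hc, hcQ⟩ := exists_conj_eq_inf S C (by rw [hS]; exact h.TNZ2.trans hNC)
    (MulAut.conj n • T2) (isPGroup_conj_smul h.pT2) (by
      have := conj_smul_mono (g := n) hT2C
      rwa [hnC] at this) (by rw [hT2, card_conj_smul])
  rw [hT2, ← conj_mul_smul] at hcQ
  have h1 : MulAut.conj (c * n) • W ≤ T := by
    refine (conj_smul_mono h.W_le2).trans ?_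
    rw [hcQ]; exact h.T2_le
  have h2 := h.conjZ_of_conjW (h.weak h1)
  have h3 : c * n ∈ normalizer (Z1 : Set G) := hM1 (mem_normalizer_iff_conj.2 h2)
  have h4 : c ∈ normalizer (Z1 : Set G) := by
    apply mem_normalizer_of_conj
    intro z hz
    have h5 := mem_centralizer_iff.1 hc z (h.Z1_le hz)
    rw [conj_of_mul_comm h5.symm]; exact hz
  have h5 := mul_mem (inv_mem h4) h3
  rwa [inv_mul_cancel_left] at h5

end Hyp

end Cfsg.Agent.H309.Ru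
end

-- part: H309/Ru/Cocycle
section
/-!
# S3204: transfer through a cocycle, orbit by orbit (helper309)

For `φ : M →* A` (`A` commutative) and `ω : G ⧸ M`, `kap φ g ω` is the cocycle of the transfer
and `VV φ O g = ∏ ω ∈ O, kap φ g ω`.
-/

set_option autoImplicit false

namespace Cfsg.Agent.H309.Ru

open Subgroup

variable {G A : Type*} [Group G] [CommGroup A] {M : Subgroup G} (φ : M →* A)

theorem kap_aux (g : G) (ω : G ⧸ M) : (g • ω).out⁻¹ * (g * ω.out) ∈ M := by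
  rw [← QuotientGroup.eq, QuotientGroup.out_eq', ← smul_eq_mul, MulAction.Quotient.coe_smul_out]

/-- The transfer cocycle. -/
noncomputable def kap (g : G) (ω : G ⧸ M) : A := φ ⟨(g • ω).out⁻¹ * (g * ω.out), kap_aux g ω⟩

theorem kap_mul (g h : G) (ω : G ⧸ M) : kap φ (g * h) ω = kap φ g (h • ω) * kap φ h ω := by
  unfold kap
  rw [← map_mul]
  congr 1
  apply Subtype.ext
  show ((g * h) • ω).out⁻¹ * (g * h * ω.out) =
    ((g • h • ω).out⁻¹ * (g * (h • ω).out)) * ((h • ω).out⁻¹ * (h * ω.out))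
  rw [mul_smul]
  group

theorem kap_one (ω : G ⧸ M) : kap φ 1 ω = 1 := by
  have := kap_mul φ 1 1 ω
  rw [mul_one, one_smul] at this
  exact (mul_eq_left.1 this.symm)

theorem smul_mk_eq_iff (g p : G) : p • (g : G ⧸ M) = (g : G ⧸ M) ↔ g⁻¹ * p * g ∈ M := by
  rw [← MulAction.Quotient.coe_smul_out]
  show _
  rw [MulAction.Quotient.coe_smul_out]
  rw [eq_comm]
  show (QuotientGroup.mk g : G ⧸ M) = QuotientGroup.mk (p * g) ↔ _
  rw [QuotientGroup.eq, mul_assoc]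

theorem kap_fix (g p : G) (hp : g⁻¹ * p * g ∈ M) : kap φ p (g : G ⧸ M) = φ ⟨g⁻¹ * p * g, hp⟩ := by
  have h1 : p • (g : G ⧸ M) = (g : G ⧸ M) := (smul_mk_eq_iff g p).2 hp
  obtain ⟨m, hm⟩ : ∃ m : M, ((g : G ⧸ M)).out = g * m := by
    refine ⟨⟨g⁻¹ * ((g : G ⧸ M)).out, ?_⟩, by simp⟩
    rw [← QuotientGroup.eq, QuotientGroup.out_eq']
  have h2 : kap φ p (g : G ⧸ M) = φ (m⁻¹ * ⟨g⁻¹ * p * g, hp⟩ * m) := by
    unfold kap
    congr 1
    apply Subtype.ext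
    show (p • (g : G ⧸ M)).out⁻¹ * (p * ((g : G ⧸ M)).out) = (m : G)⁻¹ * (g⁻¹ * p * g) * m
    rw [h1, hm]
    group
  rw [h2, map_mul, map_mul, map_inv, mul_comm (φ m)⁻¹, mul_assoc, inv_mul_cancel, mul_one]

/-- The product of the cocycle over a set. -/
noncomputable def VV (O : Set (G ⧸ M)) (g : G) : A := ∏ᶠ ω ∈ O, kap φ g ω

theorem VV_mul [Finite (G ⧸ M)] (O : Set (G ⧸ M)) (g h : G) (hO : (h • ·) '' O = O) :
    VV φ O (g * h) = VV φ O g * VV φ O h := by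
  unfold VV
  have h1 : ∏ᶠ ω ∈ O, kap φ (g * h) ω = ∏ᶠ ω ∈ O, (kap φ g (h • ω) * kap φ h ω) :=
    finprod_mem_congr rfl (fun ω _ => kap_mul φ g h ω)
  rw [h1, finprod_mem_mul_distrib (Set.toFinite O)]
  congr 1
  have h2 := finprod_mem_image (f := fun x => kap φ g x) (s := O) (g := fun x : G ⧸ M => h • x)
    (fun x _ y _ hxy => MulAction.injective h hxy)
  rw [← h2, hO]

theorem VV_one (O : Set (G ⧸ M)) : VV φ O 1 = 1 := by
  unfold VV
  have h1 : ∏ᶠ ω ∈ O, kap φ 1 ω = ∏ᶠ ω ∈ O, (1 : A) :=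
    finprod_mem_congr rfl (fun ω _ => kap_one φ ω)
  rw [h1]
  simp

/-- The orbit of `ω` under the subgroup `P`. -/
def orb (P : Subgroup G) (ω : G ⧸ M) : Set (G ⧸ M) := {x | ∃ p ∈ P, p • ω = x}

omit [CommGroup A] in
theorem orb_image {P : Subgroup G} {ω : G ⧸ M} {p : G} (hp : p ∈ P) : (p • ·) '' orb P ω = orb P ω := by
  ext x
  constructor
  · rintro ⟨_, ⟨q, hq, rfl⟩, rfl⟩
    exact ⟨p * q, mul_mem hp hq, by rw [mul_smul]⟩
  · rintro ⟨q, hq, rfl⟩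
    refine ⟨p⁻¹ • q • ω, ⟨p⁻¹ * q, mul_mem (inv_mem hp) hq, by rw [mul_smul]⟩, ?_⟩
    simp

theorem self_mem_orb (P : Subgroup G) (ω : G ⧸ M) : ω ∈ orb P ω := ⟨1, one_mem _, one_smul _ _⟩

theorem V_mul [Finite (G ⧸ M)] {P : Subgroup G} {ω : G ⧸ M} {p q : G} (hq : q ∈ P) :
    VV φ (orb P ω) (p * q) = VV φ (orb P ω) p * VV φ (orb P ω) q :=
  VV_mul φ _ p q (orb_image hq)

/-- Decomposition of an orbit along a subgroup of index 2 containing the stabilizer. -/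
theorem orb_step {P P' : Subgroup G} {ω : G ⧸ M} {s : G} (hP : P' ≤ P) (hs : s ∈ P) (hs' : s ∉ P')
    (hmod : ∀ p ∈ P, p ∈ P' ∨ s⁻¹ * p ∈ P')
    (hst : ∀ p ∈ P, p • ω = ω → p ∈ P') (hn : ∀ p ∈ P', s⁻¹ * p * s ∈ P') :
    orb P ω = orb P' ω ∪ (s • ·) '' orb P' ω ∧ Disjoint (orb P' ω) ((s • ·) '' orb P' ω) := by
  constructor
  · ext x
    constructor
    · rintro ⟨p, hp, rfl⟩
      rcases hmod p hp with h | h
      · exact Or.inl ⟨p, h, rfl⟩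
      · right
        refine ⟨(s⁻¹ * p) • ω, ⟨s⁻¹ * p, h, rfl⟩, ?_⟩
        show s • (s⁻¹ * p) • ω = p • ω
        rw [← mul_smul]; congr 1; group
    · rintro (⟨p, hp, rfl⟩ | ⟨_, ⟨p, hp, rfl⟩, rfl⟩)
      · exact ⟨p, hP hp, rfl⟩
      · exact ⟨s * p, mul_mem hs (hP hp), by rw [mul_smul]⟩
  · rw [Set.disjoint_left]
    rintro _ ⟨p, hp, rfl⟩ ⟨_, ⟨q, hq, rfl⟩, heq⟩
    have heq' : s • q • ω = p • ω := heq
    have h1 : (q⁻¹ * s⁻¹ * p) • ω = ω := by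
      rw [mul_smul, mul_smul, ← heq']; simp
    have h2 := hst _ (mul_mem (mul_mem (inv_mem (hP hq)) (inv_mem hs)) (hP hp)) h1
    have h3 : s⁻¹ ∈ P' := by
      have : s⁻¹ = q * (q⁻¹ * s⁻¹ * p) * p⁻¹ := by group
      rw [this]; exact mul_mem (mul_mem hq h2) (inv_mem hp)
    exact hs' (inv_mem_iff.1 h3)

/-- Index 2 step, element inside. -/
theorem V_step_mem [Finite (G ⧸ M)] {P P' : Subgroup G} {ω : G ⧸ M} {s p : G} (hP : P' ≤ P) (hs : s ∈ P)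
    (hs' : s ∉ P') (hmod : ∀ p ∈ P, p ∈ P' ∨ s⁻¹ * p ∈ P')
    (hst : ∀ p ∈ P, p • ω = ω → p ∈ P') (hn : ∀ p ∈ P', s⁻¹ * p * s ∈ P') (hp : p ∈ P') :
    VV φ (orb P ω) p = VV φ (orb P' ω) p * VV φ (orb P' ω) (s⁻¹ * p * s) := by
  obtain ⟨h1, h2⟩ := orb_step hP hs hs' hmod hst hn
  have h3 : VV φ (orb P ω) p = VV φ (orb P' ω) p * ∏ᶠ x ∈ (s • ·) '' orb P' ω, kap φ p x := by
    unfold VV
    rw [h1, finprod_mem_union h2 (Set.toFinite _) (Set.toFinite _)]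
  rw [h3]
  congr 1
  have h4 := finprod_mem_image (f := fun x => kap φ p x) (s := orb P' ω) (g := fun x : G ⧸ M => s • x)
    (fun x _ y _ hxy => MulAction.injective s hxy)
  rw [h4]
  have h5 : ∀ x : G ⧸ M, kap φ p (s • x) =
      (kap φ s ((s⁻¹ * p * s) • x) * kap φ (s⁻¹ * p * s) x) * (kap φ s x)⁻¹ := by
    intro x
    rw [← kap_mul, eq_mul_inv_iff_mul_eq, ← kap_mul]
    congr 1; group
  have h6 : ∏ᶠ x ∈ orb P' ω, kap φ p (s • x) =
      ∏ᶠ x ∈ orb P' ω, ((kap φ s ((s⁻¹ * p * s) • x) * kap φ (s⁻¹ * p * s) x) * (kap φ s x)⁻¹) :=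
    finprod_mem_congr rfl (fun x _ => h5 x)
  rw [h6, finprod_mem_mul_distrib (Set.toFinite _), finprod_mem_mul_distrib (Set.toFinite _)]
  have h7 := finprod_mem_image (f := fun x => kap φ s x) (s := orb P' ω)
    (g := fun x : G ⧸ M => (s⁻¹ * p * s) • x)
    (fun x _ y _ hxy => MulAction.injective _ hxy)
  rw [orb_image (hn p hp)] at h7
  rw [← h7, finprod_mem_inv_distrib _ (Set.toFinite _), mul_comm (∏ᶠ x ∈ orb P' ω, kap φ s x), mul_assoc,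
    mul_inv_cancel, mul_one]
  rfl

/-- Index 2 step, element outside. -/
theorem V_step_not [Finite (G ⧸ M)] {P P' : Subgroup G} {ω : G ⧸ M} {p : G} (hP : P' ≤ P) (hp : p ∈ P)
    (hp' : p ∉ P') (hmod : ∀ q ∈ P, q ∈ P' ∨ p⁻¹ * q ∈ P')
    (hst : ∀ q ∈ P, q • ω = ω → q ∈ P') (hn : ∀ q ∈ P', p⁻¹ * q * p ∈ P') :
    VV φ (orb P ω) p = VV φ (orb P' ω) (p * p) := by
  obtain ⟨h1, h2⟩ := orb_step hP hp hp' hmod hst hn
  have h3 : VV φ (orb P ω) p = VV φ (orb P' ω) p * ∏ᶠ x ∈ (p • ·) '' orb P' ω, kap φ p x := by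
    unfold VV
    rw [h1, finprod_mem_union h2 (Set.toFinite _) (Set.toFinite _)]
  rw [h3]
  have h4 := finprod_mem_image (f := fun x => kap φ p x) (s := orb P' ω) (g := fun x : G ⧸ M => p • x)
    (fun x _ y _ hxy => MulAction.injective p hxy)
  rw [h4]
  unfold VV
  rw [← finprod_mem_mul_distrib (Set.toFinite _)]
  apply finprod_mem_congr rfl
  intro x _
  rw [mul_comm, ← kap_mul]

theorem V_fixed {P : Subgroup G} {ω : G ⧸ M} (hfix : ∀ p ∈ P, p • ω = ω) (p : G) :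
    VV φ (orb P ω) p = kap φ p ω := by
  have : orb P ω = {ω} := by
    ext x
    constructor
    · rintro ⟨q, hq, rfl⟩
      exact hfix q hq
    · rintro rfl
      exact self_mem_orb P _
  unfold VV
  rw [this, finprod_mem_singleton]

/-- The transfer homomorphism. -/
noncomputable def trans [Finite (G ⧸ M)] : G →* A where
  toFun := VV φ Set.univ
  map_one' := VV_one φ _
  map_mul' := fun g h => VV_mul φ _ g h (by
    ext x
    constructor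
    · intro _; trivial
    · intro _
      exact ⟨h⁻¹ • x, trivial, by simp⟩)

/-- If the contributions of all orbits in an invariant set are trivial, then so is the product. -/
theorem VV_eq_one_of_orb [Finite (G ⧸ M)] (T : Subgroup G) (t : G) :
    ∀ (n : ℕ) (O : Set (G ⧸ M)), O.ncard = n → (∀ p ∈ T, ∀ x ∈ O, p • x ∈ O) →
      (∀ ω ∈ O, VV φ (orb T ω) t = 1) → VV φ O t = 1 := by
  intro n
  induction n using Nat.strong_induction_on with
  | _ n ih =>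
    intro O hn hO h1
    rcases Set.eq_empty_or_nonempty O with rfl | ⟨ω, hω⟩
    · unfold VV; simp
    · have hsub : orb T ω ⊆ O := by
        rintro _ ⟨p, hp, rfl⟩
        exact hO p hp ω hω
      have hO' : O = orb T ω ∪ (O \ orb T ω) := by rw [Set.union_sdiff_cancel hsub]
      have h2 : VV φ O t = VV φ (orb T ω) t * VV φ (O \ orb T ω) t := by
        unfold VV
        conv_lhs => rw [hO']
        rw [finprod_mem_union Set.disjoint_sdiff_right (Set.toFinite _) (Set.toFinite _)]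
      rw [h2, h1 ω hω, one_mul]
      apply ih (O \ orb T ω).ncard _ _ rfl
      · rintro p hp x ⟨hx, hxo⟩
        refine ⟨hO p hp x hx, ?_⟩
        rintro ⟨q, hq, hqx⟩
        apply hxo
        refine ⟨p⁻¹ * q, mul_mem (inv_mem hp) hq, ?_⟩
        rw [mul_smul, hqx]; simp
      · intro x hx
        exact h1 x hx.1
      · rw [← hn]
        apply Set.ncard_lt_ncard _ (Set.toFinite _)
        rw [Set.ssubset_iff_subset_ne]
        refine ⟨Set.sdiff_subset, ?_⟩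
        intro heq
        have : ω ∈ O \ orb T ω := by rw [heq]; exact hω
        exact this.2 (self_mem_orb T ω)

end Cfsg.Agent.H309.Ru
end

-- part: H309/Ru/Orbit
section
/-!
# S3204: contributions of the `T`-orbits to the transfer (helper309)
-/

set_option autoImplicit false

namespace Cfsg.Agent.H309.Ru

open Subgroup Pointwise
open scoped commutatorElement

variable {G : Type*} [Group G] {M : Subgroup G} (φ : M →* ℤˣ)

theorem sq_unit (x : ℤˣ) : x * x = 1 := by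
  rcases Int.units_eq_one_or x with rfl | rfl <;> rfl

/-- The kernel of the local homomorphism. -/
def kerAt (ω : G ⧸ M) : Subgroup G where
  carrier := {x | x • ω = ω ∧ kap φ x ω = 1}
  one_mem' := ⟨one_smul _ _, kap_one φ ω⟩
  mul_mem' := by
    rintro x y ⟨hx, hx1⟩ ⟨hy, hy1⟩
    refine ⟨by rw [mul_smul, hy, hx], ?_⟩
    rw [kap_mul, hy, hx1, hy1, one_mul]
  inv_mem' := by
    rintro x ⟨hx, hx1⟩
    have h1 : x⁻¹ • ω = ω := by rw [inv_smul_eq_iff, hx]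
    refine ⟨h1, ?_⟩
    have h2 := kap_mul φ x⁻¹ x ω
    rw [inv_mul_cancel, kap_one, hx, hx1, mul_one] at h2
    exact h2.symm

theorem mem_kerAt {ω : G ⧸ M} {x : G} : x ∈ kerAt φ ω ↔ x • ω = ω ∧ kap φ x ω = 1 := Iff.rfl

theorem kap_inv_fix {ω : G ⧸ M} {x : G} (hx : x • ω = ω) : kap φ x⁻¹ ω = (kap φ x ω)⁻¹ := by
  have h2 := kap_mul φ x⁻¹ x ω
  rw [inv_mul_cancel, kap_one, hx] at h2
  exact eq_inv_of_mul_eq_one_left h2.symm

theorem comm_mem_kerAt {ω : G ⧸ M} {x y : G} (hx : x • ω = ω) (hy : y • ω = ω) : ⁅x, y⁆ ∈ kerAt φ ω := by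
  have hx' : x⁻¹ • ω = ω := by rw [inv_smul_eq_iff, hx]
  have hy' : y⁻¹ • ω = ω := by rw [inv_smul_eq_iff, hy]
  rw [commutatorElement_def]
  refine ⟨by rw [mul_smul, mul_smul, mul_smul, hy', hx', hy, hx], ?_⟩
  rw [kap_mul, kap_mul, kap_mul, hy', hx', hy, kap_inv_fix φ hx, kap_inv_fix φ hy]
  rw [mul_comm (kap φ x ω) (kap φ y ω)]
  group

variable [Finite G]

theorem step_mem {P P' : Subgroup G} {ω : G ⧸ M} (hle : P' ≤ P) (hc : Nat.card P = 2 * Nat.card P')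
    (hst : P ⊓ MulAction.stabilizer G ω ≤ P') {s p : G} (hs : s ∈ P) (hs' : s ∉ P') (hp : p ∈ P') :
    VV φ (orb P ω) p = VV φ (orb P' ω) (p * (s⁻¹ * p * s)) := by
  rw [V_mul φ (conj_index_two hle hc hs hp)]
  exact V_step_mem φ hle hs hs' (fun q hq => mem_or_mem hle hc hs hs' hq)
    (fun q hq hq' => hst ⟨hq, hq'⟩) (fun q hq => conj_index_two hle hc hs hq) hp

theorem step_not {P P' : Subgroup G} {ω : G ⧸ M} (hle : P' ≤ P) (hc : Nat.card P = 2 * Nat.card P')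
    (hst : P ⊓ MulAction.stabilizer G ω ≤ P') {p : G} (hp : p ∈ P) (hp' : p ∉ P') :
    VV φ (orb P ω) p = VV φ (orb P' ω) (p * p) :=
  V_step_not φ hle hp hp' (fun q hq => mem_or_mem hle hc hp hp' hq)
    (fun q hq hq' => hst ⟨hq, hq'⟩) (fun q hq => conj_index_two hle hc hp hq)

theorem V_one (P : Subgroup G) (ω : G ⧸ M) : VV φ (orb P ω) 1 = 1 := VV_one φ _

theorem V_sq {P : Subgroup G} {ω : G ⧸ M} {x : G} (hx : x ∈ P) : VV φ (orb P ω) (x * x) = 1 := by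
  rw [V_mul φ hx, sq_unit]

variable {T T1 T2 W Z4 Z Z2 Z1 : Subgroup G} (h : Hyp T T1 T2 W Z4 Z Z2 Z1)
include h

theorem cW' : Nat.card W = 2 ^ 11 := by rw [h.cW]; norm_num
theorem cT' : Nat.card T = 2 ^ 14 := by rw [h.cT]; norm_num

theorem V_Z {ω : G ⧸ M} {X : Subgroup G} (hX : X ≤ W) (hXs : ¬ X ≤ MulAction.stabilizer G ω) {z : G}
    (hz : z ∈ Z) (hzX : z ∈ X) : VV φ (orb X ω) z = 1 := by
  obtain ⟨n, -, hn⟩ := dvd_of_le hX (cW' h)
  obtain ⟨X', h1, h2, h3⟩ := exists_index_two_sub hn (inf_le_left : X ⊓ MulAction.stabilizer G ω ≤ X)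
    (fun h4 => hXs (h4.trans inf_le_right))
  by_cases hz' : z ∈ X'
  · have hlt : ∃ s ∈ X, s ∉ X' := by
      by_contra hcon
      push Not at hcon
      have h5 := Nat.le_of_dvd Nat.card_pos (card_dvd_of_le (show X ≤ X' from hcon))
      have h6 : 0 < Nat.card X' := Nat.card_pos
      omega
    obtain ⟨s, hs, hs'⟩ := hlt
    rw [step_mem φ h2 h3 h1 hs hs' hz']
    have h5 : s⁻¹ * z * s = z := by
      rw [mul_assoc, ← h.cen z hz s (hX hs)]; group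
    rw [h5, h.sqZ z hz, V_one]
  · rw [step_not φ h2 h3 h1 hzX hz', h.sqZ z hz, V_one]

theorem V_W {ω : G ⧸ M} {X : Subgroup G} (hX : X ≤ W) (hXs : ¬ X ≤ MulAction.stabilizer G ω)
    (halt : 4 * Nat.card (X ⊓ MulAction.stabilizer G ω : Subgroup G) ≤ Nat.card X ∨
      ∀ z ∈ Z, z • ω = ω → kap φ z ω = 1) {x : G} (hx : x ∈ X) : VV φ (orb X ω) x = 1 := by
  obtain ⟨n, -, hn⟩ := dvd_of_le hX (cW' h)
  obtain ⟨X', h1, h2, h3⟩ := exists_index_two_sub hn (inf_le_left : X ⊓ MulAction.stabilizer G ω ≤ X)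
    (fun h4 => hXs (h4.trans inf_le_right))
  have key : ∀ u ∈ Z, u ∈ X' → VV φ (orb X' ω) u = 1 := by
    intro u hu huX
    by_cases hX's : X' ≤ MulAction.stabilizer G ω
    · have h4 : X ⊓ MulAction.stabilizer G ω = X' := le_antisymm h1 (le_inf h2 hX's)
      rcases halt with h5 | h5
      · rw [h4, h3] at h5
        have h6 : 0 < Nat.card X' := Nat.card_pos
        omega
      · rw [V_fixed φ (fun p hp => hX's hp)]
        exact h5 u hu (hX's huX)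
    · exact V_Z φ h (h2.trans hX) hX's hu huX
  by_cases hx' : x ∈ X'
  · have hlt : ∃ s ∈ X, s ∉ X' := by
      by_contra hcon
      push Not at hcon
      have h5 := Nat.le_of_dvd Nat.card_pos (card_dvd_of_le (show X ≤ X' from hcon))
      have h6 : 0 < Nat.card X' := Nat.card_pos
      omega
    obtain ⟨s, hs, hs'⟩ := hlt
    rw [step_mem φ h2 h3 h1 hs hs' hx']
    apply key _ _ (mul_mem hx' (conj_index_two h2 h3 hs hx'))
    have e : x * (s⁻¹ * x * s) = (x * x) * ⁅x⁻¹, s⁻¹⁆ := by simp only [commutatorElement_def]; group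
    rw [e]
    exact mul_mem (h.sqW x (hX hx)) (h.comW _ (inv_mem (hX hx)) _ (inv_mem (hX hs)))
  · rw [step_not φ h2 h3 h1 hx hx']
    exact key _ (h.sqW x (hX hx)) (sq_mem_index_two h2 h3 hx)

/-- `φ` kills `Z` at `ω` if the stabilizer of `ω` in `W` is large. -/
theorem kill {ω : G ⧸ M} (hc : Nat.card W ≤ 4 * Nat.card (W ⊓ MulAction.stabilizer G ω : Subgroup G)) :
    ∀ z ∈ Z, z • ω = ω ∧ kap φ z ω = 1 := by
  intro z hz
  exact h.C (W ⊓ MulAction.stabilizer G ω) inf_le_left hc (kerAt φ ω)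
    (fun x hx y hy => comm_mem_kerAt φ hx.2 hy.2) hz

theorem V_WW {ω : G ⧸ M} (hWs : ¬ W ≤ MulAction.stabilizer G ω) {w : G} (hw : w ∈ W) :
    VV φ (orb W ω) w = 1 := by
  apply V_W φ h le_rfl hWs _ hw
  by_cases hc : 4 * Nat.card (W ⊓ MulAction.stabilizer G ω : Subgroup G) ≤ Nat.card W
  · exact Or.inl hc
  · right
    intro z hz _
    exact (kill φ h (by omega) z hz).2

omit [Finite G] h in
theorem orb_eq {P X : Subgroup G} {ω : G ⧸ M} (hXP : X ≤ P)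
    (hPS : ∀ p ∈ P, ∃ w ∈ X, w⁻¹ * p ∈ MulAction.stabilizer G ω) : orb P ω = orb X ω := by
  ext x
  constructor
  · rintro ⟨p, hp, rfl⟩
    obtain ⟨w, hw, hwp⟩ := hPS p hp
    refine ⟨w, hw, ?_⟩
    have : (w⁻¹ * p) • ω = ω := hwp
    rw [mul_smul, inv_smul_eq_iff] at this
    exact this.symm
  · rintro ⟨p, hp, rfl⟩
    exact ⟨p, hXP hp, rfl⟩

theorem V_PW {P : Subgroup G} {ω : G ⧸ M} (hWP : W ≤ P) (hWs : ¬ W ≤ MulAction.stabilizer G ω)
    (hPS : ∀ p ∈ P, ∃ w ∈ W, w⁻¹ * p ∈ MulAction.stabilizer G ω) {w : G} (hw : w ∈ W) :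
    VV φ (orb P ω) w = 1 := by
  rw [orb_eq hWP hPS]; exact V_WW φ h hWs hw

/-- Lemma P, index at least 4. -/
theorem V_P4 {P : Subgroup G} {ω : G ⧸ M} (hPT : P ≤ T) (hWP : W ≤ P)
    (hWs : ¬ W ≤ MulAction.stabilizer G ω)
    (hPS : ∀ p ∈ P, ∃ w ∈ W, w⁻¹ * p ∈ MulAction.stabilizer G ω)
    (hc : 4 * Nat.card (W ⊓ MulAction.stabilizer G ω : Subgroup G) ≤ Nat.card W) {p : G} (hp : p ∈ P) :
    VV φ (orb P ω) p = 1 := by
  have key : ∀ y ∈ P, y ∈ MulAction.stabilizer G ω → VV φ (orb P ω) y = 1 := by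
    intro y hy hyS
    obtain ⟨n, -, hn⟩ := dvd_of_le hPT (cT' h)
    obtain ⟨P', h1, h2, h3⟩ := exists_index_two_sub hn (inf_le_left : P ⊓ MulAction.stabilizer G ω ≤ P)
      (fun h4 => hWs ((hWP.trans h4).trans inf_le_right))
    have hlt : ∃ s ∈ W, s ∉ P' := by
      by_contra hcon
      push Not at hcon
      have h7 : P ≤ P' := by
        intro q hq
        obtain ⟨w, hw, hwq⟩ := hPS q hq
        have : q = w * (w⁻¹ * q) := by group
        rw [this]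
        exact mul_mem (hcon w hw) (h1 (mem_inf.2 ⟨mul_mem (inv_mem (hWP hw)) hq, hwq⟩))
      have h5 := Nat.le_of_dvd Nat.card_pos (card_dvd_of_le h7)
      have h6 : 0 < Nat.card P' := Nat.card_pos
      omega
    obtain ⟨s, hs, hs'⟩ := hlt
    have hyP' : y ∈ P' := h1 ⟨hy, hyS⟩
    rw [step_mem φ h2 h3 h1 (hWP hs) hs' hyP']
    have e : y * (s⁻¹ * y * s) = (y * y) * (y⁻¹ * s⁻¹ * y⁻¹⁻¹ * s) := by group
    have hxW : y⁻¹ * s⁻¹ * y⁻¹⁻¹ * s ∈ W := mul_mem (h.nW _ (inv_mem (hPT hy)) _ (inv_mem hs)) hs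
    have hxP' : y⁻¹ * s⁻¹ * y⁻¹⁻¹ * s ∈ P' := by
      have h5 := mul_mem (inv_mem hyP') (conj_index_two h2 h3 (hWP hs) hyP')
      have e2 : y⁻¹ * s⁻¹ * y⁻¹⁻¹ * s = y⁻¹ * (s⁻¹ * y * s) := by group
      rw [e2]; exact h5
    rw [e, V_mul φ hxP', V_sq φ hyP', one_mul]
    -- restrict to X = W ⊓ P'
    have hX1 : (W ⊓ P' : Subgroup G) ≤ P' := inf_le_right
    have horb : orb P' ω = orb (W ⊓ P' : Subgroup G) ω := by
      apply orb_eq hX1
      intro q hq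
      obtain ⟨w, hw, hwq⟩ := hPS q (h2 hq)
      refine ⟨w, ⟨hw, ?_⟩, hwq⟩
      have h5 := h1 (mem_inf.2 ⟨mul_mem (inv_mem (hWP hw)) (h2 hq), hwq⟩)
      have h6 := mul_mem hq (inv_mem h5)
      have e2 : q * (w⁻¹ * q)⁻¹ = w := by group
      rwa [e2] at h6
    rw [horb]
    have hcX : Nat.card W ≤ 2 * Nat.card (W ⊓ P' : Subgroup G) := by
      have h5 := card_mul_le hWP h2
      rw [h3] at h5
      have h6 : 0 < Nat.card P' := Nat.card_pos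
      nlinarith
    have hstle : (W ⊓ MulAction.stabilizer G ω : Subgroup G) ≤ P' := fun x hx => h1 ⟨hWP hx.1, hx.2⟩
    have hposS : 0 < Nat.card (W ⊓ MulAction.stabilizer G ω : Subgroup G) := Nat.card_pos
    have heqS : (W ⊓ P' ⊓ MulAction.stabilizer G ω : Subgroup G) = W ⊓ MulAction.stabilizer G ω := by
      apply le_antisymm
      · exact le_inf (inf_le_left.trans inf_le_left) inf_le_right
      · exact le_inf (le_inf inf_le_left hstle) inf_le_right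
    apply V_W φ h inf_le_left _ _ ⟨hxW, hxP'⟩
    · intro h5
      have h6 : (W ⊓ P' : Subgroup G) ≤ W ⊓ MulAction.stabilizer G ω := le_inf inf_le_left h5
      have h7 := Nat.le_of_dvd Nat.card_pos (card_dvd_of_le h6)
      omega
    · rw [heqS]
      by_cases h8 : 8 * Nat.card (W ⊓ MulAction.stabilizer G ω : Subgroup G) ≤ Nat.card W
      · left; omega
      · right
        intro z hz _
        refine (kill φ h ?_ z hz).2
        obtain ⟨k, hk, hck⟩ := dvd_of_le (inf_le_left : (W ⊓ MulAction.stabilizer G ω : Subgroup G) ≤ W)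
          (cW' h)
        rw [hck, h.cW] at h8 ⊢
        interval_cases k <;> omega
  obtain ⟨w, hw, hwp⟩ := hPS p hp
  have e : p = w * (w⁻¹ * p) := by group
  have hq : w⁻¹ * p ∈ P := mul_mem (inv_mem (hWP hw)) hp
  rw [e, V_mul φ hq, V_PW φ h hWP hWs hPS hw, key _ hq hwp, one_mul]

/-- Lemma P, index 2. -/
theorem V_P2 {P : Subgroup G} {ω : G ⧸ M} (hWP : W ≤ P)
    (hPS : ∀ p ∈ P, ∃ w ∈ W, w⁻¹ * p ∈ MulAction.stabilizer G ω)
    (hc : Nat.card W = 2 * Nat.card (W ⊓ MulAction.stabilizer G ω : Subgroup G))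
    {s : G} (hs : s ∈ W) (hs' : s ∉ MulAction.stabilizer G ω) {y : G} (hy : y ∈ P)
    (hyS : y ∈ MulAction.stabilizer G ω) :
    VV φ (orb P ω) y = kap φ (y⁻¹ * s⁻¹ * y * s) ω := by
  set P' : Subgroup G := P ⊓ MulAction.stabilizer G ω with hP'
  have hmod : ∀ p ∈ P, p ∈ P' ∨ s⁻¹ * p ∈ P' := by
    intro p hp
    obtain ⟨w, hw, hwp⟩ := hPS p hp
    rcases mem_or_mem inf_le_left hc hs (fun h1 => hs' h1.2) hw with h1 | h1
    · left
      refine mem_inf.2 ⟨hp, ?_⟩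
      have e : p = w * (w⁻¹ * p) := by group
      rw [e]; exact mul_mem h1.2 hwp
    · right
      refine mem_inf.2 ⟨mul_mem (inv_mem (hWP hs)) hp, ?_⟩
      have e : s⁻¹ * p = (s⁻¹ * w) * (w⁻¹ * p) := by group
      rw [e]; exact mul_mem h1.2 hwp
  have hs'' : s ∉ P' := fun h1 => hs' h1.2
  have hn : ∀ p ∈ P', s⁻¹ * p * s ∈ P' := by
    intro p hp
    rcases hmod (p * s) (mul_mem hp.1 (hWP hs)) with h1 | h1
    · exact absurd ((mul_mem_cancel_left hp).1 h1) hs''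
    · rw [mul_assoc]; exact h1
  have hyP' : y ∈ P' := ⟨hy, hyS⟩
  rw [V_step_mem φ inf_le_left (hWP hs) hs'' hmod (fun p hp hp' => mem_inf.2 ⟨hp, hp'⟩) hn hyP',
    ← V_mul φ (hn y hyP'), V_fixed φ (P := P') (fun p hp => (mem_inf.1 hp).2)]
  have e : y * (s⁻¹ * y * s) = (y * y) * (y⁻¹ * s⁻¹ * y * s) := by group
  have hx : (y⁻¹ * s⁻¹ * y * s) • ω = ω := by
    have h1 := mul_mem (inv_mem hyP') (hn y hyP')
    have e2 : y⁻¹ * s⁻¹ * y * s = y⁻¹ * (s⁻¹ * y * s) := by group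
    rw [e2]; exact h1.2
  have hyy : y • ω = ω := hyS
  rw [e, kap_mul, hx, kap_mul, hyy, sq_unit, one_mul]

/-- The subgroup `(T ∩ St ω) W`. -/
theorem XX_spec {ω : G ⧸ M} : ∀ p ∈ ((T ⊓ MulAction.stabilizer G ω) ⊔ W : Subgroup G),
    ∃ w ∈ W, w⁻¹ * p ∈ MulAction.stabilizer G ω := by
  intro p hp
  obtain ⟨a, ha, w, hw, rfl⟩ := (mem_sup_norm (inf_le_left.trans h.TNW)).1 hp
  refine ⟨a * w * a⁻¹, h.nW a ha.1 w hw, ?_⟩
  have e : (a * w * a⁻¹)⁻¹ * (a * w) = a := by group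
  rw [e]; exact ha.2

theorem XX_le {ω : G ⧸ M} : ((T ⊓ MulAction.stabilizer G ω) ⊔ W : Subgroup G) ≤ T :=
  sup_le inf_le_left h.WT

/-- Lemma Q. -/
theorem V_Q {ω : G ⧸ M} (hWs : ¬ W ≤ MulAction.stabilizer G ω) :
    ∀ (n : ℕ) (P : Subgroup G), Nat.card P = n → P ≤ T →
      ((T ⊓ MulAction.stabilizer G ω) ⊔ W : Subgroup G) ≤ P → ∀ w ∈ W, VV φ (orb P ω) w = 1 := by
  intro n
  induction n using Nat.strong_induction_on with
  | _ n ih =>
    intro P hn hPT hXP w hw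
    by_cases hPX : P ≤ (T ⊓ MulAction.stabilizer G ω) ⊔ W
    · exact V_PW φ h (le_sup_right.trans hXP) hWs (fun p hp => XX_spec h p (hPX hp)) hw
    · obtain ⟨m, -, hm⟩ := dvd_of_le hPT (cT' h)
      obtain ⟨P', h1, h2, h3⟩ := exists_index_two_sub hm hXP hPX
      have hlt : ∃ s ∈ P, s ∉ P' := by
        by_contra hcon
        push Not at hcon
        have h5 := Nat.le_of_dvd Nat.card_pos (card_dvd_of_le (show P ≤ P' from hcon))
        have h6 : 0 < Nat.card P' := Nat.card_pos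
        omega
      obtain ⟨s, hs, hs'⟩ := hlt
      have hwP' : w ∈ P' := h1 (le_sup_right (a := T ⊓ MulAction.stabilizer G ω) hw)
      have h4 : P ⊓ MulAction.stabilizer G ω ≤ P' := fun x hx =>
        h1 (le_sup_left (a := T ⊓ MulAction.stabilizer G ω) (b := W) ⟨hPT hx.1, hx.2⟩)
      have h5 : Nat.card P' < n := by
        have h6 : 0 < Nat.card P' := Nat.card_pos
        omega
      have h6 := h.nW _ (inv_mem (hPT hs)) _ hw
      rw [inv_inv] at h6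
      rw [step_mem φ h2 h3 h4 hs hs' hwP', ih _ h5 P' rfl (h2.trans hPT) h1 _ (mul_mem hw h6)]

/-- Lemma R. -/
theorem V_R {ω : G ⧸ M} (hWs : ¬ W ≤ MulAction.stabilizer G ω) {P : Subgroup G} (hPT : P ≤ T)
    (hXP : ((T ⊓ MulAction.stabilizer G ω) ⊔ W : Subgroup G) ≤ P)
    (hPX : ¬ P ≤ (T ⊓ MulAction.stabilizer G ω) ⊔ W) (hsq : ∀ x ∈ P, x * x ∈ W)
    (hcm : ∀ x ∈ P, ∀ y ∈ P, ⁅x, y⁆ ∈ W) {u : G} (hu : u ∈ P) : VV φ (orb P ω) u = 1 := by
  obtain ⟨m, -, hm⟩ := dvd_of_le hPT (cT' h)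
  obtain ⟨P', h1, h2, h3⟩ := exists_index_two_sub hm hXP hPX
  have h4 : P ⊓ MulAction.stabilizer G ω ≤ P' := fun x hx =>
    h1 (le_sup_left (a := T ⊓ MulAction.stabilizer G ω) (b := W) ⟨hPT hx.1, hx.2⟩)
  by_cases hu' : u ∈ P'
  · have hlt : ∃ s ∈ P, s ∉ P' := by
      by_contra hcon
      push Not at hcon
      have h5 := Nat.le_of_dvd Nat.card_pos (card_dvd_of_le (show P ≤ P' from hcon))
      have h6 : 0 < Nat.card P' := Nat.card_pos
      omega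
    obtain ⟨s, hs, hs'⟩ := hlt
    rw [step_mem φ h2 h3 h4 hs hs' hu']
    apply V_Q φ h hWs _ P' rfl (h2.trans hPT) h1
    have e : u * (s⁻¹ * u * s) = (u * u) * ⁅u⁻¹, s⁻¹⁆ := by simp only [commutatorElement_def]; group
    rw [e]
    exact mul_mem (hsq u hu) (hcm _ (inv_mem hu) _ (inv_mem hs))
  · rw [step_not φ h2 h3 h4 hu hu']
    exact V_Q φ h hWs _ P' rfl (h2.trans hPT) h1 _ (hsq u hu)

/-- Lemma T. -/
theorem V_T {ω : G ⧸ M} (hWs : ¬ W ≤ MulAction.stabilizer G ω) {Ta : Subgroup G} (hTa : Ta ≤ T)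
    (hc : Nat.card T = 2 * Nat.card Ta) (hsq : ∀ x ∈ Ta, x * x ∈ W)
    (hcm : ∀ x ∈ Ta, ∀ y ∈ Ta, ⁅x, y⁆ ∈ W) {t : G} (ht : t ∈ Ta)
    (huniq : ∀ P : Subgroup G, P ≤ T → W ≤ P → Nat.card T = 2 * Nat.card P → t ∈ P → P = Ta)
    (hX : ¬ Ta ≤ (T ⊓ MulAction.stabilizer G ω) ⊔ W) : VV φ (orb T ω) t = 1 := by
  have hXT := XX_le (ω := ω) h
  obtain ⟨P, h1, h2, h3⟩ := exists_index_two_sub (cT' h) hXT (fun h4 => hX (hTa.trans h4))
  have h4 : T ⊓ MulAction.stabilizer G ω ≤ P := le_sup_left.trans h1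
  by_cases htP : t ∈ P
  · have h5 := huniq P h2 (le_sup_right.trans h1) h3 htP
    subst h5
    have hlt : ∃ s ∈ T, s ∉ P := by
      by_contra hcon
      push Not at hcon
      have h5 := Nat.le_of_dvd Nat.card_pos (card_dvd_of_le (show T ≤ P from hcon))
      have h6 : 0 < Nat.card P := Nat.card_pos
      omega
    obtain ⟨s, hs, hs'⟩ := hlt
    rw [step_mem φ h2 h3 h4 hs hs' ht]
    exact V_R φ h hWs hTa h1 hX hsq hcm (mul_mem ht (conj_index_two h2 h3 hs ht))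
  · rw [step_not φ h2 h3 h4 (hTa ht) htP]
    exact V_Q φ h hWs _ P rfl h2 h1 _ (hsq t ht)

/-- Lemma T when `X = Ta`. -/
theorem V_T_of_X {ω : G ⧸ M} {Ta : Subgroup G} (hTa : Ta ≤ T)
    (hc : Nat.card T = 2 * Nat.card Ta) (hX : (T ⊓ MulAction.stabilizer G ω) ⊔ W = Ta)
    (hV : ∀ x ∈ Ta, VV φ (orb Ta ω) x = 1) {t : G} (ht : t ∈ Ta) : VV φ (orb T ω) t = 1 := by
  have hlt : ∃ s ∈ T, s ∉ Ta := by
    by_contra hcon
    push Not at hcon
    have h5 := Nat.le_of_dvd Nat.card_pos (card_dvd_of_le (show T ≤ Ta from hcon))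
    have h6 : 0 < Nat.card Ta := Nat.card_pos
    omega
  obtain ⟨s, hs, hs'⟩ := hlt
  have h4 : T ⊓ MulAction.stabilizer G ω ≤ Ta := by rw [← hX]; exact le_sup_left
  rw [step_mem φ hTa hc h4 hs hs' ht]
  exact hV _ (mul_mem ht (conj_index_two hTa hc hs ht))

end Cfsg.Agent.H309.Ru
end

-- part: H309/Ru/Pair
section
/-!
# S3204: two conjugates of the data (helper309)
-/

set_option autoImplicit false

namespace Cfsg.Agent.H309.Ru

open Subgroup Pointwise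
open scoped commutatorElement

variable {G : Type*} [Group G]

/-- `|K : K0| ≤ |L : N|` when commutation with `x` maps `K` to `L` with fibre `K0` modulo `N`. -/
theorem card_comm_le [Finite G] {K K0 L N : Subgroup G} (x : G) (hK0 : K0 ≤ K) (hN : N ≤ L)
    (hL : ∀ w ∈ K, ⁅x, w⁆ ∈ L) (hK : ∀ w ∈ K, ⁅x, w⁆ ∈ N → w ∈ K0)
    (hn : ∀ w ∈ K, ∀ n ∈ N, w⁻¹ * n * w ∈ N) : Nat.card K * Nat.card N ≤ Nat.card K0 * Nat.card L := by
  classical
  have h1 : Nat.card (K ⧸ K0.subgroupOf K) ≤ Nat.card (L ⧸ N.subgroupOf L) := by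
    let f : K ⧸ K0.subgroupOf K → L ⧸ N.subgroupOf L := fun q =>
      QuotientGroup.mk ⟨⁅x, (q.out : G)⁆, hL _ q.out.2⟩
    apply Nat.card_le_card_of_injective f
    intro p q hpq
    have h2 : (⟨⁅x, (p.out : G)⁆, hL _ p.out.2⟩ : L)⁻¹ * ⟨⁅x, (q.out : G)⁆, hL _ q.out.2⟩ ∈ N.subgroupOf L :=
      QuotientGroup.eq.1 hpq
    rw [mem_subgroupOf] at h2
    have h3 : ⁅x, (p.out : G)⁆⁻¹ * ⁅x, (q.out : G)⁆ ∈ N := h2
    have h4 := hn _ p.out.2 _ h3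
    have h5 : (p.out : G)⁻¹ * (⁅x, (p.out : G)⁆⁻¹ * ⁅x, (q.out : G)⁆) * (p.out : G) =
        ⁅x, (p.out : G)⁻¹ * (q.out : G)⁆ := by
      simp only [commutatorElement_def]; group
    rw [h5] at h4
    have h6 := hK _ (mul_mem (inv_mem p.out.2) q.out.2) h4
    rw [← QuotientGroup.out_eq' p, ← QuotientGroup.out_eq' q, QuotientGroup.eq, mem_subgroupOf]
    exact h6
  have h2 := (K0.subgroupOf K).card_mul_index
  have h3 := (N.subgroupOf L).card_mul_index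
  rw [Nat.card_congr (subgroupOfEquivOfLe hK0).toEquiv] at h2
  rw [Nat.card_congr (subgroupOfEquivOfLe hN).toEquiv] at h3
  have h4 : (K0.subgroupOf K).index = Nat.card (K ⧸ K0.subgroupOf K) := rfl
  have h5 : (N.subgroupOf L).index = Nat.card (L ⧸ N.subgroupOf L) := rfl
  rw [← h2, ← h3, h4, h5]
  calc Nat.card K0 * Nat.card (K ⧸ K0.subgroupOf K) * Nat.card N
      ≤ Nat.card K0 * Nat.card (L ⧸ N.subgroupOf L) * Nat.card N :=
        Nat.mul_le_mul_right _ (Nat.mul_le_mul_left _ h1)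
    _ = Nat.card K0 * (Nat.card N * Nat.card (L ⧸ N.subgroupOf L)) := by ring

/-- Two elements generating a group of order 4 modulo a subgroup. -/
theorem gen4 [Finite G] {W T1 K : Subgroup G} (hW : W ≤ T1) (hc : Nat.card T1 = 4 * Nat.card W) {a b : G}
    (ha : a ∈ T1) (hb : b ∈ T1) (haW : a ∉ W) (hbW : b ∉ W) (habW : a⁻¹ * b ∉ W) (hWK : W ≤ K)
    (haK : a ∈ K) (hbK : b ∈ K) : T1 ≤ K := by
  by_contra hcon
  have h1 : K ⊓ T1 < T1 := lt_of_le_of_ne inf_le_right (fun h => hcon (inf_eq_right.1 h))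
  have h2 : W < K ⊓ T1 := by
    refine lt_of_le_of_ne (le_inf hWK hW) ?_
    intro h
    exact haW (by rw [h]; exact ⟨haK, ha⟩)
  have h3 := card_lt_two h1
  have h4 := card_lt_two h2
  have h5 : Nat.card (K ⊓ T1 : Subgroup G) = 2 * Nat.card W := by omega
  rcases mem_or_mem h2.le h5 (x := a) (y := b) ⟨haK, ha⟩ haW ⟨hbK, hb⟩ with h6 | h6
  · exact hbW h6
  · exact habW h6

/-- Choice of two such elements. -/
theorem exists_gen4 [Finite G] {U D : Subgroup G} {n : ℕ} (hn : Nat.card D = 2 ^ n) (hU : U ≤ D)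
    (hc : Nat.card D = 4 * Nat.card U) : ∃ a ∈ D, ∃ b ∈ D, a ∉ U ∧ b ∉ U ∧ a⁻¹ * b ∉ U := by
  have hpos : 0 < Nat.card U := Nat.card_pos
  obtain ⟨D0, h1, h2, h3⟩ := exists_index_two_sub hn hU (fun h => by
    have := Nat.le_of_dvd Nat.card_pos (card_dvd_of_le h); omega)
  have h4 : ∃ a ∈ D0, a ∉ U := by
    by_contra hcon
    push Not at hcon
    have := Nat.le_of_dvd Nat.card_pos (card_dvd_of_le (show D0 ≤ U from hcon)); omega
  have h5 : ∃ b ∈ D, b ∉ D0 := by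
    by_contra hcon
    push Not at hcon
    have := Nat.le_of_dvd Nat.card_pos (card_dvd_of_le (show D ≤ D0 from hcon)); omega
  obtain ⟨a, ha, ha'⟩ := h4
  obtain ⟨b, hb, hb'⟩ := h5
  refine ⟨a, h2 ha, b, hb, ha', fun h => hb' (h1 h), fun h => hb' ?_⟩
  have := mul_mem ha (h1 h)
  rwa [mul_inv_cancel_left] at this

/-- A pair of data `(T, ...)`, `(T', ...)` with `W1 = N_W(Z')` of index 2 in `W` and contained in `T'`. -/
structure Pair0 (T T1 T2 W Z4 Z Z2 Z1 T' T1' T2' W' Z4' Z' Z2' Z1' W1 : Subgroup G) : Prop where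
  h : Hyp T T1 T2 W Z4 Z Z2 Z1
  h' : Hyp T' T1' T2' W' Z4' Z' Z2' Z1'
  ne : Z ≠ Z'
  eqW1 : W1 = W ⊓ normalizer (Z' : Set G)
  idx : Nat.card W = 2 * Nat.card W1
  le' : W1 ≤ T'

namespace Hyp

variable {T T1 T2 W Z4 Z Z2 Z1 : Subgroup G}

theorem WNZ [Finite G] (h : Hyp T T1 T2 W Z4 Z Z2 Z1) : W ≤ normalizer (Z : Set G) := h.WT.trans h.TNZ

theorem cenc (h : Hyp T T1 T2 W Z4 Z Z2 Z1) {z w : G} (hz : z ∈ Z) (hw : w ∈ W) : ⁅w, z⁆ = 1 :=
  comm_eq_one (h.cen z hz w hw)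

end Hyp

namespace Pair0

variable [Finite G] {T T1 T2 W Z4 Z Z2 Z1 T' T1' T2' W' Z4' Z' Z2' Z1' W1 : Subgroup G}
  (p : Pair0 T T1 T2 W Z4 Z Z2 Z1 T' T1' T2' W' Z4' Z' Z2' Z1' W1)
include p

theorem cW1 : Nat.card W1 = 1024 := by
  have h1 := p.idx
  have h2 := p.h.cW
  omega

theorem W1W : W1 ≤ W := by rw [p.eqW1]; exact inf_le_left
theorem W1N : W1 ≤ normalizer (Z' : Set G) := by rw [p.eqW1]; exact inf_le_right

theorem U_le : (W ⊓ W' : Subgroup G) ≤ W1 := by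
  rw [p.eqW1]
  exact inf_le_inf_left W p.h'.WNZ

theorem basic : Z ≤ W' ∧ Z' ≤ W ∧ Nat.card (W ⊓ W' : Subgroup G) = 256 ∧
    Nat.card (W1 ⊔ W' : Subgroup G) = 8192 ∧ (W1 ⊔ W' = T1' ∨ W1 ⊔ W' = T2') := by
  have hUeq : (W1 ⊓ W' : Subgroup G) = W ⊓ W' := by
    apply le_antisymm
    · exact inf_le_inf_right W' p.W1W
    · exact le_inf p.U_le inf_le_right
  have h1 := card_mul_le p.le' p.h'.WT
  rw [hUeq, p.cW1, p.h'.cW, p.h'.cT] at h1
  have hZ : Z ≤ W ⊓ W' := p.h.d _ inf_le_left (by rw [p.h.cW]; omega)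
  have hnorm : W1 ≤ normalizer (W' : Set G) := p.le'.trans p.h'.TNW
  have hsq : ∀ x ∈ W1 ⊔ W', x * x ∈ W' := by
    intro x hx
    obtain ⟨a, ha, b, hb, rfl⟩ := (mem_sup_norm hnorm).1 hx
    have e : a * b * (a * b) = (a * b * a⁻¹) * (a * a) * b := by group
    rw [e]
    exact mul_mem (mul_mem (p.h'.nW a (p.le' ha) b hb) (hZ (p.h.sqW a (p.W1W ha))).2) hb
  have h4 : W1 ⊔ W' < T' := by
    refine lt_of_le_of_ne (sup_le p.le' p.h'.WT) ?_
    intro heq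
    obtain ⟨a, ha, ha2⟩ := p.h'.exists_T1
    obtain ⟨b, hb, hb1⟩ := p.h'.exists_T2
    have hab : a * b ∈ T' := mul_mem (p.h'.T1_le ha) (p.h'.T2_le hb)
    refine p.h'.sq_not_mem hab ?_ ?_ (hsq _ (by rw [heq]; exact hab))
    · intro h5; exact hb1 ((mul_mem_cancel_left ha).1 h5)
    · intro h5; exact ha2 ((mul_mem_cancel_right hb).1 h5)
  have h5 := card_lt_two h4
  rw [p.h'.cT] at h5
  have h6 := card_sup_mul hnorm
  rw [hUeq, p.cW1, p.h'.cW] at h6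
  have h7 : Nat.card (W ⊓ W' : Subgroup G) < 512 := by
    by_contra hcon
    push Not at hcon
    apply p.ne
    apply eq_of_le_of_card_le
    · apply p.h.C (W ⊓ W') inf_le_left (by rw [p.h.cW]; omega)
      intro x hx y hy
      exact p.h'.comW x hx.2 y hy.2
    · rw [p.h.cZ, p.h'.cZ]
  obtain ⟨k, hk, hck⟩ := dvd_of_le (inf_le_left : (W ⊓ W' : Subgroup G) ≤ W)
    (show Nat.card W = 2 ^ 11 by rw [p.h.cW]; norm_num)
  have h8 : Nat.card (W ⊓ W' : Subgroup G) = 256 := by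
    have h9 : Nat.card (W1 ⊔ W' : Subgroup G) ≤ 8192 := by omega
    rw [hck] at h6 h7 ⊢
    interval_cases k <;> first | rfl | (exfalso; omega)
  have h9 : Nat.card (W1 ⊔ W' : Subgroup G) = 8192 := by
    rw [h8] at h6; omega
  refine ⟨hZ.trans inf_le_right, ?_, h8, h9, ?_⟩
  · exact (p.h'.d _ inf_le_right (by rw [p.h'.cW, h8]; norm_num)).trans inf_le_left
  · exact p.h'.eq_of_sq (sup_le p.le' p.h'.WT) h9 hsq

theorem ZW' : Z ≤ W' := p.basic.1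
theorem Z'W : Z' ≤ W := p.basic.2.1
theorem cU : Nat.card (W ⊓ W' : Subgroup G) = 256 := p.basic.2.2.1

theorem commU {x y : G} (hx : x ∈ W ⊓ W') (hy : y ∈ W ⊓ W') : ⁅x, y⁆ ∈ Z ⊓ Z' :=
  ⟨p.h.comW _ hx.1 _ hy.1, p.h'.comW _ hx.2 _ hy.2⟩

theorem inf1 (hT : W1 ⊔ W' = T1') : Z ⊓ Z' = Z1' := by
  have hnorm : W1 ≤ normalizer (W' : Set G) := p.le'.trans p.h'.TNW
  apply le_antisymm
  · rintro z ⟨hz, hz'⟩
    apply p.h'.cent_T1 hz'
    intro t ht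
    rw [← hT] at ht
    obtain ⟨a, ha, b, hb, rfl⟩ := (mem_sup_norm hnorm).1 ht
    rw [mul_assoc, p.h'.cen z hz' b hb, ← mul_assoc, p.h.cen z hz a (p.W1W ha), mul_assoc]
  · intro a ha
    obtain ⟨z2, hz2, hz2'⟩ := p.h'.exists_z2
    obtain ⟨t, ht, e⟩ := p.h'.exists_comm_T1 hz2 hz2' ha
    rw [← hT] at ht
    obtain ⟨x, hx, y, hy, rfl⟩ := (mem_sup_norm hnorm).1 ht
    rw [comm_mul_left', p.h'.cenc (p.h'.Z2_le hz2) hy, commutatorElement_one_right, one_mul, one_mul] at e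
    refine ⟨?_, p.h'.Z1Z ha⟩
    rw [← e]
    exact p.h.comW _ (p.W1W hx) _ (p.Z'W (p.h'.Z2_le hz2))

theorem inf2 (hT : W1 ⊔ W' = T2') : Z ⊓ Z' = Z2' := by
  have hnorm : W1 ≤ normalizer (W' : Set G) := p.le'.trans p.h'.TNW
  apply le_antisymm
  · rintro z ⟨hz, hz'⟩
    apply p.h'.cent_T2 hz'
    intro t ht
    rw [← hT] at ht
    obtain ⟨a, ha, b, hb, rfl⟩ := (mem_sup_norm hnorm).1 ht
    rw [mul_assoc, p.h'.cen z hz' b hb, ← mul_assoc, p.h.cen z hz a (p.W1W ha), mul_assoc]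
  · intro a ha
    obtain ⟨z3, hz3, hz3'⟩ := p.h'.exists_z3
    obtain ⟨t, ht, e⟩ := p.h'.exists_comm_T2 hz3 hz3' ha
    rw [← hT] at ht
    obtain ⟨x, hx, y, hy, rfl⟩ := (mem_sup_norm hnorm).1 ht
    rw [comm_mul_left', p.h'.cenc hz3 hy, commutatorElement_one_right, one_mul, one_mul] at e
    refine ⟨?_, p.h'.Z2_le ha⟩
    rw [← e]
    exact p.h.comW _ (p.W1W hx) _ (p.Z'W hz3)

/-- the commutator formula -/
theorem xcomm {s y v : G} (hs : s ∈ W) (hy : y ∈ T) (hyN : y ∈ normalizer (Z' : Set G)) (hv : v ∈ Z') :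
    ⁅y⁻¹ * s⁻¹ * y * s, v⁆ = ⁅s, v⁆ * (y⁻¹ * ⁅s, y * v * y⁻¹⁆ * y)⁻¹ := by
  have h1 : ⁅s, v⁆ ∈ Z := p.h.comW _ hs _ (p.Z'W hv)
  have h2 : y * v * y⁻¹ ∈ Z' := conj_of_mem_normalizer hyN hv
  have h3 : ⁅s, y * v * y⁻¹⁆ ∈ Z := p.h.comW _ hs _ (p.Z'W h2)
  have h4 : y * ⁅s, v⁆ * y⁻¹ ∈ Z := p.h.n3 hy h1
  -- s commutes with these
  have c1 : s⁻¹ * (y * ⁅s, v⁆ * y⁻¹) = (y * ⁅s, v⁆ * y⁻¹) * s⁻¹ := p.h.cen _ h4 _ (inv_mem hs)
  have c2 : s⁻¹ * ⁅s, y * v * y⁻¹⁆ = ⁅s, y * v * y⁻¹⁆ * s⁻¹ := p.h.cen _ h3 _ (inv_mem hs)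
  -- conjugation by s⁻¹ of v' = y v y⁻¹
  have c3 : s⁻¹ * (y * v * y⁻¹) * s = ⁅s, y * v * y⁻¹⁆⁻¹ * (y * v * y⁻¹) := by
    have e1 : ⁅s, y * v * y⁻¹⁆⁻¹ * s⁻¹ = s⁻¹ * ⁅s, y * v * y⁻¹⁆⁻¹ := by
      calc ⁅s, y * v * y⁻¹⁆⁻¹ * s⁻¹ = ⁅s, y * v * y⁻¹⁆⁻¹ * (s⁻¹ * ⁅s, y * v * y⁻¹⁆) * ⁅s, y * v * y⁻¹⁆⁻¹ := by
            simp only [mul_assoc, mul_inv_cancel, mul_one]
        _ = ⁅s, y * v * y⁻¹⁆⁻¹ * (⁅s, y * v * y⁻¹⁆ * s⁻¹) * ⁅s, y * v * y⁻¹⁆⁻¹ := by rw [c2]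
        _ = s⁻¹ * ⁅s, y * v * y⁻¹⁆⁻¹ := by
            rw [inv_mul_cancel_left]
    have e2 : ⁅s, y * v * y⁻¹⁆⁻¹ * (y * v * y⁻¹) = (⁅s, y * v * y⁻¹⁆⁻¹ * s⁻¹) * (s * (y * v * y⁻¹)) := by
      group
    rw [e2, e1]
    simp only [commutatorElement_def]; group
  have e0 : ⁅y⁻¹ * s⁻¹ * y * s, v⁆ = y⁻¹ * (s⁻¹ * (y * (⁅s, v⁆ * v) * y⁻¹) * s) * y * v⁻¹ := by
    simp only [commutatorElement_def]; group
  have e3 : s⁻¹ * (y * (⁅s, v⁆ * v) * y⁻¹) * s = (s⁻¹ * (y * ⁅s, v⁆ * y⁻¹)) * (y * v * y⁻¹) * s := by group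
  rw [e0, e3, c1]
  have e4 : y * ⁅s, v⁆ * y⁻¹ * s⁻¹ * (y * v * y⁻¹) * s = (y * ⁅s, v⁆ * y⁻¹) * (s⁻¹ * (y * v * y⁻¹) * s) := by group
  rw [e4, c3]
  group

end Pair0

end Cfsg.Agent.H309.Ru
end

-- part: H309/Ru/LemV
section
/-!
# S3204: the counting argument on `W / Z` (helper309)
-/

set_option autoImplicit false

namespace Cfsg.Agent.H309.Ru

open Subgroup Pointwise
open scoped commutatorElement

variable {G : Type*} [Group G]

/-- Elements of `K` on which `S` acts trivially modulo `N`. -/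
def modC (K : Subgroup G) (S : Set G) (N : Subgroup G) (hn : ∀ k ∈ K, ∀ n ∈ N, k * n * k⁻¹ ∈ N) :
    Subgroup G where
  carrier := {x | x ∈ K ∧ ∀ t ∈ S, ⁅t, x⁆ ∈ N}
  one_mem' := ⟨one_mem _, fun t _ => by rw [commutatorElement_one_right]; exact one_mem _⟩
  mul_mem' := by
    rintro x y ⟨hx, hx'⟩ ⟨hy, hy'⟩
    refine ⟨mul_mem hx hy, fun t ht => ?_⟩
    have e : ⁅t, x * y⁆ = ⁅t, x⁆ * (x * ⁅t, y⁆ * x⁻¹) := by simp only [commutatorElement_def]; group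
    rw [e]
    exact mul_mem (hx' t ht) (hn x hx _ (hy' t ht))
  inv_mem' := by
    rintro x ⟨hx, hx'⟩
    refine ⟨inv_mem hx, fun t ht => ?_⟩
    have e : ⁅t, x⁻¹⁆ = x⁻¹ * ⁅t, x⁆⁻¹ * x⁻¹⁻¹ := by simp only [commutatorElement_def]; group
    rw [e]
    exact hn _ (inv_mem hx) _ (inv_mem (hx' t ht))

theorem mem_modC {K : Subgroup G} {S : Set G} {N : Subgroup G} {hn : ∀ k ∈ K, ∀ n ∈ N, k * n * k⁻¹ ∈ N}
    {x : G} : x ∈ modC K S N hn ↔ x ∈ K ∧ ∀ t ∈ S, ⁅t, x⁆ ∈ N := Iff.rfl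

theorem modC_conj {K : Subgroup G} {S : Set G} {N : Subgroup G} {hn : ∀ k ∈ K, ∀ n ∈ N, k * n * k⁻¹ ∈ N}
    {g : G} (hK : ∀ k ∈ K, g * k * g⁻¹ ∈ K) (hS : ∀ t ∈ S, g⁻¹ * t * g ∈ S)
    (hN : ∀ n ∈ N, g * n * g⁻¹ ∈ N) {x : G} (hx : x ∈ modC K S N hn) : g * x * g⁻¹ ∈ modC K S N hn := by
  refine ⟨hK x hx.1, fun t ht => ?_⟩
  have e : ⁅t, g * x * g⁻¹⁆ = g * ⁅g⁻¹ * t * g, x⁆ * g⁻¹ := by simp only [commutatorElement_def]; group
  rw [e]
  exact hN _ (hx.2 _ (hS t ht))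

/-- Elements of `S` acting trivially on `x` modulo `N`. -/
def centMod (S N : Subgroup G) (hn : ∀ s ∈ S, ∀ n ∈ N, s * n * s⁻¹ ∈ N) (x : G) : Subgroup G where
  carrier := {t | t ∈ S ∧ ⁅t, x⁆ ∈ N}
  one_mem' := ⟨one_mem _, by rw [commutatorElement_one_left]; exact one_mem _⟩
  mul_mem' := by
    rintro s t ⟨hs, hs'⟩ ⟨ht, ht'⟩
    refine ⟨mul_mem hs ht, ?_⟩
    have e : ⁅s * t, x⁆ = (s * ⁅t, x⁆ * s⁻¹) * ⁅s, x⁆ := by simp only [commutatorElement_def]; group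
    rw [e]
    exact mul_mem (hn s hs _ ht') hs'
  inv_mem' := by
    rintro s ⟨hs, hs'⟩
    refine ⟨inv_mem hs, ?_⟩
    have e : ⁅s⁻¹, x⁆ = s⁻¹ * ⁅s, x⁆⁻¹ * s⁻¹⁻¹ := by simp only [commutatorElement_def]; group
    rw [e]
    exact hn _ (inv_mem hs) _ (inv_mem hs')

theorem mem_centMod {S N : Subgroup G} {hn : ∀ s ∈ S, ∀ n ∈ N, s * n * s⁻¹ ∈ N} {x t : G} :
    t ∈ centMod S N hn x ↔ t ∈ S ∧ ⁅t, x⁆ ∈ N := Iff.rfl

theorem le_of_index_two [Finite G] {A B K : Subgroup G} (hAB : A ≤ B) (hc : Nat.card B = 2 * Nat.card A)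
    {s : G} (hs : s ∈ B) (hsA : s ∉ A) (hAK : A ≤ K) (hsK : s ∈ K) : B ≤ K := by
  intro y hy
  rcases mem_or_mem hAB hc hs hsA hy with h | h
  · exact hAK h
  · have := mul_mem hsK (hAK h)
    rwa [mul_inv_cancel_left] at this

namespace Hyp

variable {T T1 T2 W Z4 Z Z2 Z1 : Subgroup G} (h : Hyp T T1 T2 W Z4 Z Z2 Z1)
include h

theorem comm_sq {a w : G} (ha : a ∈ T1) (hw : w ∈ W) : ⁅a, ⁅a, w⁆⁆ ∈ Z := by
  have h1 := comm_mul_left' a a w
  have h2 : ⁅a * a, w⁆ ∈ Z := h.comW _ (h.sqT1 ha) _ hw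
  have h3 := h.commW (h.T1_le ha) hw
  have h4 := h.sqW _ h3
  rw [mul_assoc] at h1
  rw [h1] at h2
  exact (mul_mem_cancel_right h4).1 h2

theorem comm_swap {a b w : G} (ha : a ∈ T1) (hb : b ∈ T1) (hw : w ∈ W) (hab : ⁅a, ⁅b, w⁆⁆ ∈ Z) :
    ⁅b, ⁅a, w⁆⁆ ∈ Z := by
  have haT := h.T1_le ha
  have hbT := h.T1_le hb
  have hx := h.commW hbT hw
  have hy := h.commW haT hw
  have hc := h.commT1 ha hb
  have hba : ⁅b * a, w⁆ ∈ W := h.commW (mul_mem hbT haT) hw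
  have e1 := comm_mul_left' a b w
  have e2 := comm_mul_left' b a w
  have e3 := comm_mul_left' ⁅a, b⁆ (b * a) w
  have e4 : ⁅a, b⁆ * (b * a) = a * b := by simp only [commutatorElement_def]; group
  rw [e4] at e3
  have hz1 : ⁅⁅a, b⁆, ⁅b * a, w⁆⁆ ∈ Z := h.comW _ hc _ hba
  have hz2 : ⁅⁅a, b⁆, w⁆ ∈ Z := h.comW _ hc _ hw
  -- ⁅b*a, w⁆ = z1⁻¹ ⁅a*b,w⁆ z2⁻¹
  have e5 : ⁅b * a, w⁆ = ⁅⁅a, b⁆, ⁅b * a, w⁆⁆⁻¹ * ⁅a * b, w⁆ * ⁅⁅a, b⁆, w⁆⁻¹ := by
    rw [e3]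
    simp only [mul_assoc, inv_mul_cancel_left, mul_inv_cancel, mul_one]
  set z1 := ⁅⁅a, b⁆, ⁅b * a, w⁆⁆ with hz1d
  set z2 := ⁅⁅a, b⁆, w⁆ with hz2d
  have e6 : ⁅b, ⁅a, w⁆⁆ = ⁅b * a, w⁆ * ⁅b, w⁆⁻¹ * ⁅a, w⁆⁻¹ := by
    rw [e2]
    simp only [mul_assoc, mul_inv_cancel, mul_one, mul_inv_cancel_left]
  rw [e5, e1] at e6
  have e7 : z1⁻¹ * (⁅a, ⁅b, w⁆⁆ * ⁅b, w⁆ * ⁅a, w⁆) * z2⁻¹ * ⁅b, w⁆⁻¹ * ⁅a, w⁆⁻¹ =
      z1⁻¹ * ⁅a, ⁅b, w⁆⁆ * ((⁅b, w⁆ * ⁅a, w⁆) * z2⁻¹ * (⁅b, w⁆ * ⁅a, w⁆)⁻¹) * ⁅⁅b, w⁆, ⁅a, w⁆⁆ := by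
    rw [commutatorElement_def ⁅b, w⁆ ⁅a, w⁆]; group
  rw [e6, e7]
  refine mul_mem (mul_mem (mul_mem (inv_mem hz1) hab) ?_) (h.comW _ hx _ hy)
  exact h.n3 (h.WT (mul_mem hx hy)) (inv_mem hz2)

end Hyp

namespace Pair0

variable [Finite G] {T T1 T2 W Z4 Z Z2 Z1 T' T1' T2' W' Z4' Z' Z2' Z1' W1 : Subgroup G}
  (p : Pair0 T T1 T2 W Z4 Z Z2 Z1 T' T1' T2' W' Z4' Z' Z2' Z1' W1)
include p

theorem Z'NZ : Z' ≤ normalizer (Z : Set G) := p.Z'W.trans p.h.WNZ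

theorem cA (hinf : Z ⊓ Z' = Z1) : Nat.card (Z' ⊔ Z : Subgroup G) = 32 := by
  have h1 := card_sup_mul p.Z'NZ
  rw [p.h'.cZ, p.h.cZ, inf_comm, hinf, p.h.cZ1] at h1
  omega

theorem A_le : (Z' ⊔ Z : Subgroup G) ≤ W := sup_le p.Z'W p.h.ZW

theorem cD (hD : (T ⊓ W') ⊔ W = T1) : Nat.card (T ⊓ W' : Subgroup G) = 1024 := by
  have h1 := card_sup_mul (A := T ⊓ W') (B := W) (inf_le_left.trans p.h.TNW)
  have h2 : (T ⊓ W' ⊓ W : Subgroup G) = W ⊓ W' := by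
    apply le_antisymm
    · exact le_inf inf_le_right (inf_le_left.trans inf_le_right)
    · exact le_inf (le_inf (inf_le_left.trans p.h.WT) inf_le_right) inf_le_left
  rw [hD, h2, p.h.cT1, p.cU, p.h.cW] at h1
  omega

/-- `A = Z Z'` is the set of elements of `W` on which `T1` acts trivially modulo `Z`. -/
theorem mem_A (hD : (T ⊓ W') ⊔ W = T1) (hinf : Z ⊓ Z' = Z1) {x : G} :
    x ∈ Z' ⊔ Z ↔ x ∈ W ∧ ∀ t ∈ T1, ⁅t, x⁆ ∈ Z := by
  have hn : ∀ k ∈ W, ∀ n ∈ Z, k * n * k⁻¹ ∈ Z := fun k hk n hn => p.h.n3 (p.h.WT hk) hn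
  have hle : Z' ⊔ Z ≤ modC W (T1 : Set G) Z hn := by
    apply sup_le
    · intro x hx
      refine ⟨p.Z'W hx, fun t ht => ?_⟩
      rw [SetLike.mem_coe, ← hD] at ht
      obtain ⟨d, hd, w, hw, rfl⟩ := (mem_sup_norm (inf_le_left.trans p.h.TNW)).1 ht
      rw [comm_mul_left', p.h'.cenc hx hd.2, mul_one]
      have h1 : ⁅w, x⁆ ∈ Z := p.h.comW _ hw _ (p.Z'W hx)
      exact mul_mem (comm_mem_of_conj h1 (p.h.n3 hd.1 h1)) h1
    · intro x hx
      refine ⟨p.h.ZW hx, fun t ht => p.h.Z1Z (p.h.T1c ht hx)⟩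
  have hB : Nat.card (modC W (T1 : Set G) Z hn) ≤ 32 := by
    apply p.h.b1
    · intro x hx; exact hx.1
    · exact le_sup_right.trans hle
    · intro t ht a ha
      exact ha.2 t ht
    · intro t ht a ha
      apply modC_conj (fun k hk => p.h.nW t ht k hk) _ (fun n hn => p.h.n3 ht hn) ha
      intro y hy
      exact conj_index_two p.h.T1_le p.h.idx1 ht hy
  have heq : Z' ⊔ Z = modC W (T1 : Set G) Z hn := by
    apply eq_of_le_of_card_le hle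
    rw [p.cA hinf]; exact hB
  rw [heq, mem_modC]
  rfl

/-- There is an element `d` of `D` outside `U` with `⁅d, s⁆ ∈ U`. -/
theorem exists_d (hD : (T ⊓ W') ⊔ W = T1) (hinf : Z ⊓ Z' = Z1) {s : G} (hs : s ∈ W) :
    ∃ d ∈ T ⊓ W', d ∉ W ∧ ⁅d, s⁆ ∈ W ⊓ W' := by
  have hcD := p.cD hD
  have hUD : (W ⊓ W' : Subgroup G) ≤ T ⊓ W' := inf_le_inf_right _ p.h.WT
  obtain ⟨a, ha, b, hb, haU, hbU, habU⟩ := exists_gen4 (n := 10) (by rw [hcD]; norm_num) hUD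
    (by rw [hcD, p.cU])
  have hDT1 : (T ⊓ W' : Subgroup G) ≤ T1 := by rw [← hD]; exact le_sup_left
  have hnW : ∀ d ∈ T ⊓ W', d ∉ W ⊓ W' → d ∉ W := fun d hd hd' hdW => hd' ⟨hdW, hd.2⟩
  have haT1 := hDT1 ha
  have hbT1 := hDT1 hb
  have haT := p.h.T1_le haT1
  have hbT := p.h.T1_le hbT1
  have hn : ∀ k ∈ T, ∀ n ∈ Z, k * n * k⁻¹ ∈ Z := fun k hk n hn => p.h.n3 hk hn
  have habD : a⁻¹ * b ∈ T ⊓ W' := mul_mem (inv_mem ha) hb
  -- membership in A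
  have hA : ∀ w ∈ W, ⁅a, w⁆ ∈ Z → ⁅b, w⁆ ∈ Z → w ∈ Z' ⊔ Z := by
    intro w hw h1 h2
    rw [p.mem_A hD hinf]
    refine ⟨hw, fun t ht => ?_⟩
    have h3 : T1 ≤ centMod T Z hn w := by
      apply gen4 p.h.W_le1 (by rw [p.h.cT1, p.h.cW]) haT1 hbT1 (hnW a ha haU) (hnW b hb hbU)
        (hnW _ habD habU)
      · intro w' hw'
        exact ⟨p.h.WT hw', p.h.comW _ hw' _ hw⟩
      · exact ⟨haT, h1⟩
      · exact ⟨hbT, h2⟩
    exact (h3 ht).2
  have hAc : ∀ x ∈ Z' ⊔ Z, ∀ t ∈ T1, ⁅t, x⁆ ∈ Z := fun x hx => ((p.mem_A hD hinf).1 hx).2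
  have hnA : ∀ k ∈ W, ∀ n ∈ Z' ⊔ Z, k * n * k⁻¹ ∈ Z' ⊔ Z := by
    intro k hk n hn
    exact conj_mem_of_comm hn ((le_sup_right : Z ≤ Z' ⊔ Z) (hAc n hn k (p.h.W_le1 hk)))
  have hnA' : ∀ k ∈ W, ∀ n ∈ Z, k⁻¹ * n * k ∈ Z := by
    intro k hk n hn
    have := p.h.n3 (inv_mem (p.h.WT hk)) hn
    rwa [inv_inv] at this
  set W2 : Subgroup G := modC W ({a, b} : Set G) (Z' ⊔ Z) hnA with hW2
  have hnZ : ∀ k ∈ W2, ∀ n ∈ Z, k * n * k⁻¹ ∈ Z := fun k hk n hn => p.h.n3 (p.h.WT hk.1) hn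
  have hcW2 : Nat.card W2 ≤ 512 := by
    set K0 : Subgroup G := modC W2 ({a} : Set G) Z hnZ with hK0
    have h1 := card_comm_le (K := W2) (K0 := K0) (L := Z' ⊔ Z) (N := Z) a (fun x hx => hx.1) le_sup_right
      (fun w hw => hw.2 a (by simp))
      (fun w hw hw' => ⟨hw, fun t ht => by rw [Set.mem_singleton_iff] at ht; rw [ht]; exact hw'⟩)
      (fun w hw n hn => hnA' w hw.1 n hn)
    have h2 := card_comm_le (K := K0) (K0 := (Z' ⊔ Z) ⊓ K0) (L := Z' ⊔ Z) (N := Z) b inf_le_right le_sup_right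
      (fun w hw => hw.1.2 b (by simp))
      (fun w hw hw' => mem_inf.2 ⟨hA w hw.1.1 (hw.2 a rfl) hw', hw⟩)
      (fun w hw n hn => hnA' w hw.1.1 n hn)
    have h3 : Nat.card ((Z' ⊔ Z) ⊓ K0 : Subgroup G) ≤ 32 := by
      rw [← p.cA hinf]
      exact Nat.le_of_dvd Nat.card_pos (card_dvd_of_le inf_le_left)
    rw [p.cA hinf, p.h.cZ] at h1 h2
    omega
  -- elements of W2
  have hUW2 : (W ⊓ W' : Subgroup G) ≤ W2 := by
    intro u hu
    refine ⟨hu.1, fun t ht => ?_⟩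
    apply (le_sup_left : Z' ≤ Z' ⊔ Z)
    rcases ht with rfl | ht
    · exact p.h'.comW _ ha.2 _ hu.2
    · rw [Set.mem_singleton_iff] at ht
      rw [ht]; exact p.h'.comW _ hb.2 _ hu.2
  have hZA : Z ≤ Z' ⊔ Z := le_sup_right
  have haW2 : ⁅a, s⁆ ∈ W2 := by
    have h0 := p.h.commW haT hs
    refine ⟨h0, fun t ht => ?_⟩
    rcases ht with rfl | ht
    · exact hZA (p.h.comm_sq haT1 hs)
    · rw [Set.mem_singleton_iff] at ht
      rw [ht]
      apply hA _ (p.h.commW hbT h0)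
      · apply p.h.comm_swap hbT1 haT1 h0
        have := p.h.comm_sq haT1 hs
        exact comm_mem_of_conj this (p.h.n3 hbT this)
      · exact p.h.comm_sq hbT1 h0
  have hbW2 : ⁅b, s⁆ ∈ W2 := by
    have h0 := p.h.commW hbT hs
    refine ⟨h0, fun t ht => ?_⟩
    rcases ht with rfl | ht
    · apply hA _ (p.h.commW haT h0)
      · exact p.h.comm_sq haT1 h0
      · apply p.h.comm_swap haT1 hbT1 h0
        have := p.h.comm_sq hbT1 hs
        exact comm_mem_of_conj this (p.h.n3 haT this)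
    · rw [Set.mem_singleton_iff] at ht
      rw [ht]
      exact hZA (p.h.comm_sq hbT1 hs)
  by_cases h1 : ⁅a, s⁆ ∈ W ⊓ W'
  · exact ⟨a, ha, hnW a ha haU, h1⟩
  by_cases h2 : ⁅b, s⁆ ∈ W ⊓ W'
  · exact ⟨b, hb, hnW b hb hbU, h2⟩
  refine ⟨a⁻¹ * b, habD, hnW _ habD habU, ?_⟩
  have h3 : (W ⊓ W' : Subgroup G) < W2 := by
    refine lt_of_le_of_ne hUW2 ?_
    intro heq; exact h1 (by rw [heq]; exact haW2)
  have h4 := card_lt_two h3
  rw [p.cU] at h4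
  have h5 : ⁅a, s⁆⁻¹ * ⁅b, s⁆ ∈ W ⊓ W' :=
    (mem_or_mem hUW2 (by rw [p.cU]; omega) haW2 h1 hbW2).resolve_left h2
  have e : ⁅a⁻¹ * b, s⁆ = a⁻¹ * (⁅a, s⁆ * (⁅a, s⁆⁻¹ * ⁅b, s⁆) * ⁅a, s⁆⁻¹) * a := by
    simp only [commutatorElement_def]; group
  rw [e]
  -- W normalizes U
  have hWU : ∀ w ∈ W, ∀ u ∈ W ⊓ W', w * u * w⁻¹ ∈ W ⊓ W' := by
    intro w hw u hu
    apply conj_mem_of_comm hu
    have := p.h.comW w hw u hu.1
    exact ⟨p.h.ZW this, p.ZW' this⟩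
  have h6 := hWU _ (p.h.commW haT hs) _ h5
  have h7 := mul_mem (mul_mem (inv_mem (mem_inf.1 ha).2) h6.2) (mem_inf.1 ha).2
  have h8 := p.h.nW _ (inv_mem haT) _ h6.1
  rw [inv_inv] at h8
  exact ⟨h8, h7⟩

/-- The V-argument. -/
theorem lemV (hD : (T ⊓ W') ⊔ W = T1) (hinf : Z ⊓ Z' = Z1) {s : G} (hs : s ∈ W) :
    ∃ x ∈ Z', x ∉ Z1 ∧ ⁅s, x⁆ ∈ Z1 := by
  obtain ⟨d, hd, hdW, hdU⟩ := p.exists_d hD hinf (inv_mem hs)
  -- d commutes with ⁅s, x⁆
  have hds : ∀ x ∈ Z', d * ⁅s, x⁆ = ⁅s, x⁆ * d := by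
    intro x hx
    have h1 : s⁻¹ * d * s ∈ W' := by
      have e : s⁻¹ * d * s = (d⁻¹ * ⁅d, s⁻¹⁆)⁻¹ := by simp only [commutatorElement_def]; group
      rw [e]; exact inv_mem (mul_mem (inv_mem hd.2) hdU.2)
    have h2 := p.h'.cen x hx _ h1
    have h3 : d * (s * x * s⁻¹) = (s * x * s⁻¹) * d := by
      calc d * (s * x * s⁻¹) = s * ((s⁻¹ * d * s) * x) * s⁻¹ := by group
        _ = s * (x * (s⁻¹ * d * s)) * s⁻¹ := by rw [h2]
        _ = (s * x * s⁻¹) * d := by group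
    have h4 := p.h'.cen x⁻¹ (inv_mem hx) d hd.2
    rw [commutatorElement_def]
    calc d * (s * x * s⁻¹ * x⁻¹) = (d * (s * x * s⁻¹)) * x⁻¹ := by group
      _ = (s * x * s⁻¹) * (d * x⁻¹) := by rw [h3]; group
      _ = (s * x * s⁻¹ * x⁻¹) * d := by rw [h4]; group
  set CZ : Subgroup G := Z ⊓ centralizer ({d} : Set G) with hCZ
  have hCZ1 : Z1 ≤ CZ := by
    intro z hz
    refine mem_inf.2 ⟨p.h.Z1Z hz, mem_centralizer_iff.2 (fun y hy => ?_)⟩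
    rw [Set.mem_singleton_iff] at hy
    rw [hy]; exact p.h.c1 d hd.1 z hz
  have hlt : CZ < Z := by
    refine lt_of_le_of_ne inf_le_left ?_
    intro heq
    apply hdW
    apply p.h.memW d hd.1
    intro z hz
    rw [← heq] at hz
    exact (mem_centralizer_iff.1 hz.2 d rfl)
  have h1 := card_lt_two hlt
  rw [p.h.cZ] at h1
  have hn : ∀ k ∈ Z', ∀ n ∈ Z1, k * n * k⁻¹ ∈ Z1 := fun k hk n hn => p.h.n1 (p.h.WT (p.Z'W hk)) hn
  have h2 := card_comm_le (K := Z') (K0 := modC Z' ({s} : Set G) Z1 hn) (L := CZ) (N := Z1) s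
    (fun x hx => hx.1) hCZ1
    (fun x hx => mem_inf.2 ⟨p.h.comW _ hs _ (p.Z'W hx), mem_centralizer_iff.2 (fun y hy => by
      rw [Set.mem_singleton_iff] at hy
      rw [hy]; exact hds x hx)⟩)
    (fun x hx hx' => ⟨hx, fun t ht => by rw [Set.mem_singleton_iff] at ht; rw [ht]; exact hx'⟩)
    (fun x hx n hn' => by
      have := hn x⁻¹ (inv_mem hx) n hn'
      rwa [inv_inv] at this)
  rw [p.h'.cZ, p.h.cZ1] at h2
  by_contra hcon
  push Not at hcon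
  have h3 : modC Z' ({s} : Set G) Z1 hn ≤ Z1 := by
    intro x hx
    by_contra hx1
    exact hcon x hx.1 hx1 (hx.2 s rfl)
  have h4 := Nat.le_of_dvd Nat.card_pos (card_dvd_of_le h3)
  rw [p.h.cZ1] at h4
  have h5 : Nat.card (modC Z' ({s} : Set G) Z1 hn) * Nat.card CZ ≤ 2 * 4 := Nat.mul_le_mul h4 (by omega)
  omega

end Pair0

end Cfsg.Agent.H309.Ru
end

-- part: H309/Ru/Types
section
/-!
# S3204: the type analysis (helper309)
-/

set_option autoImplicit false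

namespace Cfsg.Agent.H309.Ru

open Subgroup Pointwise
open scoped commutatorElement

variable {G : Type*} [Group G]

/-- The pair coming from a `T`-orbit. -/
structure Pair (T T1 T2 W Z4 Z Z2 Z1 T' T1' T2' W' Z4' Z' Z2' Z1' W1 : Subgroup G) : Prop where
  p : Pair0 T T1 T2 W Z4 Z Z2 Z1 T' T1' T2' W' Z4' Z' Z2' Z1' W1
  YT : (T ⊓ normalizer (Z' : Set G) : Subgroup G) ≤ T'
  nW' : ¬ W' ≤ normalizer (Z : Set G)

namespace Pair

variable [Finite G] {T T1 T2 W Z4 Z Z2 Z1 T' T1' T2' W' Z4' Z' Z2' Z1' W1 : Subgroup G}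
  (q : Pair T T1 T2 W Z4 Z Z2 Z1 T' T1' T2' W' Z4' Z' Z2' Z1' W1)
include q

theorem YW : (T ⊓ normalizer (Z' : Set G) ⊓ W : Subgroup G) = W1 := by
  rw [q.p.eqW1]
  apply le_antisymm
  · exact le_inf inf_le_right (inf_le_left.trans inf_le_right)
  · exact le_inf (le_inf (inf_le_left.trans q.p.h.WT) inf_le_right) inf_le_left

theorem YW' : (T ⊓ normalizer (Z' : Set G) ⊓ W' : Subgroup G) = T ⊓ W' := by
  apply le_antisymm
  · exact le_inf (inf_le_left.trans inf_le_left) inf_le_right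
  · exact le_inf (inf_le_inf_left _ q.p.h'.WNZ) inf_le_right

theorem W1Y : W1 ≤ T ⊓ normalizer (Z' : Set G) := by
  rw [← q.YW]; exact inf_le_left

theorem cX : Nat.card ((T ⊓ normalizer (Z' : Set G)) ⊔ W : Subgroup G) =
    2 * Nat.card (T ⊓ normalizer (Z' : Set G) : Subgroup G) := by
  have h1 := card_sup_mul (A := T ⊓ normalizer (Z' : Set G)) (B := W) (inf_le_left.trans q.p.h.TNW)
  rw [q.YW, q.p.cW1, q.p.h.cW] at h1
  omega

theorem cX' : Nat.card ((T ⊓ normalizer (Z' : Set G)) ⊔ W' : Subgroup G) * Nat.card (T ⊓ W' : Subgroup G) =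
    Nat.card (T ⊓ normalizer (Z' : Set G) : Subgroup G) * 2048 := by
  have h1 := card_sup_mul (A := T ⊓ normalizer (Z' : Set G)) (B := W') (q.YT.trans q.p.h'.TNW)
  rw [q.YW', q.p.h'.cW] at h1
  exact h1

theorem cD_le : Nat.card (T ⊓ W' : Subgroup G) ≤ 1024 := by
  have h1 : (T ⊓ W' : Subgroup G) < W' := by
    refine lt_of_le_of_ne inf_le_right ?_
    intro heq
    exact q.nW' ((inf_eq_right.1 heq).trans q.p.h.TNZ)
  have h2 := card_lt_two h1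
  rw [q.p.h'.cW] at h2
  omega

theorem sup_le_T' : ((T ⊓ normalizer (Z' : Set G)) ⊔ W' : Subgroup G) ≤ T' := sup_le q.YT q.p.h'.WT

theorem W1_sup_le : (W1 ⊔ W' : Subgroup G) ≤ (T ⊓ normalizer (Z' : Set G)) ⊔ W' := sup_le_sup_right q.W1Y _

/-- Numbers: either `Y W' = T'`, or `|Y W'| = 2^13`. -/
theorem cases_X' : Nat.card ((T ⊓ normalizer (Z' : Set G)) ⊔ W' : Subgroup G) = 8192 ∨
    (T ⊓ normalizer (Z' : Set G)) ⊔ W' = T' := by
  by_cases h : (T ⊓ normalizer (Z' : Set G)) ⊔ W' = T'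
  · exact Or.inr h
  · left
    have h1 := card_lt_two (lt_of_le_of_ne q.sup_le_T' h)
    have h2 := Nat.le_of_dvd Nat.card_pos (card_dvd_of_le q.W1_sup_le)
    rw [q.p.basic.2.2.2.1] at h2
    rw [q.p.h'.cT] at h1
    omega

theorem X_cases {Ta : Subgroup G} (hTa : Nat.card Ta = 8192)
    (hX : Ta ≤ (T ⊓ normalizer (Z' : Set G)) ⊔ W) :
    ((T ⊓ normalizer (Z' : Set G)) ⊔ W = Ta ∧ Nat.card (T ⊓ normalizer (Z' : Set G) : Subgroup G) = 4096) ∨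
    ((T ⊓ normalizer (Z' : Set G)) ⊔ W = T ∧ Nat.card (T ⊓ normalizer (Z' : Set G) : Subgroup G) = 8192) := by
  have hXT : ((T ⊓ normalizer (Z' : Set G)) ⊔ W : Subgroup G) ≤ T := sup_le inf_le_left q.p.h.WT
  have h1 := q.cX
  by_cases h2 : (T ⊓ normalizer (Z' : Set G)) ⊔ W = T
  · right
    refine ⟨h2, ?_⟩
    rw [h2, q.p.h.cT] at h1
    omega
  · left
    have h3 := card_lt_two (lt_of_le_of_ne hXT h2)
    rw [q.p.h.cT] at h3
    have h4 := (eq_of_le_of_card_le hX (by rw [hTa]; omega)).symm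
    refine ⟨h4, ?_⟩
    rw [h4, hTa] at h1
    omega

/-- In case b the centers coincide. -/
theorem Z1_eq (hX : T1 ≤ (T ⊓ normalizer (Z' : Set G)) ⊔ W) (hT : W1 ⊔ W' = T1') : Z1' = Z1 := by
  have hinf := q.p.inf1 hT
  apply eq_of_le_of_card_le
  · intro z hz
    have hz2 : z ∈ Z ⊓ Z' := by rw [hinf]; exact hz
    apply q.p.h.cent_T1 hz2.1
    intro t ht
    obtain ⟨y, hy, w, hw, rfl⟩ := (mem_sup_norm (inf_le_left.trans q.p.h.TNW)).1 (hX ht)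
    rw [mul_assoc, q.p.h.cen z hz2.1 w hw, ← mul_assoc, q.p.h'.c1 y (q.YT hy) z hz, mul_assoc]
  · rw [q.p.h.cZ1, q.p.h'.cZ1]

omit [Finite G] q in
theorem comm_mul_W (h : Hyp T T1 T2 W Z4 Z Z2 Z1) {s a b : G} (ha : a ∈ W) (hb : ⁅s, b⁆ ∈ Z) :
    ⁅s, a * b⁆ = ⁅s, a⁆ * ⁅s, b⁆ := by
  have e : ⁅s, a * b⁆ = ⁅s, a⁆ * (a * ⁅s, b⁆ * a⁻¹) := by simp only [commutatorElement_def]; group
  rw [e, conj_of_mul_comm (h.cen _ hb a ha)]

omit [Finite G] q in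
theorem comm_W_of_s [Finite G] {W W1 N : Subgroup G} (hle : W1 ≤ W) (hc : Nat.card W = 2 * Nat.card W1)
    (hn : ∀ k ∈ W, ∀ n ∈ N, k * n * k⁻¹ ∈ N) {s x : G} (hs : s ∈ W) (hs' : s ∉ W1)
    (h1 : ∀ w ∈ W1, ⁅w, x⁆ ∈ N) (h2 : ⁅s, x⁆ ∈ N) : ∀ w ∈ W, ⁅w, x⁆ ∈ N := by
  have h3 : W ≤ centMod W N hn x := le_of_index_two hle hc hs hs'
    (fun w hw => ⟨hle hw, h1 w hw⟩) ⟨hs, h2⟩
  exact fun w hw => (h3 hw).2

omit q in
/-- The pair with the roles exchanged. -/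
theorem swap (q : Pair T T1 T2 W Z4 Z Z2 Z1 T' T1' T2' W' Z4' Z' Z2' Z1' W1)
    (hcD : Nat.card (T ⊓ W' : Subgroup G) = 1024) :
    Pair0 T' T1' T2' W' Z4' Z' Z2' Z1' T T1 T2 W Z4 Z Z2 Z1 (T ⊓ W') where
  h := q.p.h'
  h' := q.p.h
  ne := q.p.ne.symm
  eqW1 := by
    apply eq_of_le_of_card_le
    · exact le_inf inf_le_right (inf_le_left.trans q.p.h.TNZ)
    · have h1 : (W' ⊓ normalizer (Z : Set G) : Subgroup G) < W' := by
        refine lt_of_le_of_ne inf_le_left ?_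
        intro heq
        exact q.nW' (inf_eq_left.1 heq)
      have h2 := card_lt_two h1
      rw [q.p.h'.cW] at h2
      rw [hcD]; omega
  idx := by rw [hcD, q.p.h'.cW]
  le' := inf_le_left

omit q in
theorem exists_s (p : Pair0 T T1 T2 W Z4 Z Z2 Z1 T' T1' T2' W' Z4' Z' Z2' Z1' W1) : ∃ s ∈ W, s ∉ W1 := by
  by_contra hcon
  push Not at hcon
  have h1 := Nat.le_of_dvd Nat.card_pos (card_dvd_of_le (show W ≤ W1 from hcon))
  rw [p.cW1, p.h.cW] at h1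
  omega

/-- Case b. -/
theorem caseB (hX : T1 ≤ (T ⊓ normalizer (Z' : Set G)) ⊔ W) (hT : W1 ⊔ W' = T1') :
    ∀ s ∈ W, ∀ z ∈ Z2', ⁅s, z⁆ ∈ Z1 := by
  have hZ1 := q.Z1_eq hX hT
  have hinf : Z ⊓ Z' = Z1 := (q.p.inf1 hT).trans hZ1
  have hW1T1 : W1 ≤ T1' := by rw [← hT]; exact le_sup_left
  have hW1 : ∀ w ∈ W1, ∀ x ∈ Z', ⁅w, x⁆ ∈ Z1 := fun w hw x hx => by
    rw [← hZ1]; exact q.p.h'.T1c (hW1T1 hw) hx
  have hn : ∀ k ∈ W, ∀ n ∈ Z1, k * n * k⁻¹ ∈ Z1 := fun k hk n hn => q.p.h.n1 (q.p.h.WT hk) hn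
  obtain ⟨s, hs, hs'⟩ := exists_s q.p
  have hall : ∀ x ∈ Z', ⁅s, x⁆ ∈ Z1 → ∀ w ∈ W, ⁅w, x⁆ ∈ Z1 := fun x hx h1 =>
    comm_W_of_s q.p.W1W q.p.idx hn hs hs' (fun w hw => hW1 w hw x hx) h1
  have hDW : ((T ⊓ W') ⊔ W : Subgroup G) ≤ (T ⊓ normalizer (Z' : Set G)) ⊔ W :=
    sup_le_sup_right (inf_le_inf_left _ q.p.h'.WNZ) _
  have hDU : (T ⊓ W' ⊓ W : Subgroup G) = W ⊓ W' := by
    apply le_antisymm
    · exact le_inf inf_le_right (inf_le_left.trans inf_le_right)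
    · exact le_inf (le_inf (inf_le_left.trans q.p.h.WT) inf_le_right) inf_le_left
  have hcDW := card_sup_mul (A := T ⊓ W') (B := W) (inf_le_left.trans q.p.h.TNW)
  rw [hDU, q.p.cU, q.p.h.cW] at hcDW
  have h1 := q.cX
  have h2 := q.cX'
  have h3 := q.cD_le
  rcases q.cases_X' with h4 | h4
  · -- impossible
    exfalso
    rw [h4] at h2
    have hXT : T1 = (T ⊓ normalizer (Z' : Set G)) ⊔ W ∧ Nat.card (T ⊓ W' : Subgroup G) = 1024 := by
      have h5 := Nat.le_of_dvd Nat.card_pos (card_dvd_of_le hX)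
      rw [q.p.h.cT1] at h5
      refine ⟨eq_of_le_of_card_le hX ?_, ?_⟩
      · rw [q.p.h.cT1]; omega
      · omega
    have hD : (T ⊓ W') ⊔ W = T1 := by
      apply eq_of_le_of_card_le
      · rw [hXT.1]; exact hDW
      · rw [hXT.2] at hcDW
        rw [q.p.h.cT1]; omega
    obtain ⟨x, hx, hx1, hsx⟩ := q.p.lemV hD hinf hs
    have hnA : ∀ k ∈ Z' ⊔ Z, ∀ n ∈ Z1, k * n * k⁻¹ ∈ Z1 := fun k hk n hn' =>
      hn k (q.p.A_le hk) n hn'
    set F : Subgroup G := modC (Z' ⊔ Z) (T1 : Set G) Z1 hnA with hF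
    have hAinv : ∀ t ∈ T, ∀ k ∈ Z' ⊔ Z, t * k * t⁻¹ ∈ Z' ⊔ Z := by
      intro t ht k hk
      rw [q.p.mem_A hD hinf] at hk ⊢
      refine ⟨q.p.h.nW t ht k hk.1, fun r hr => ?_⟩
      have e : ⁅r, t * k * t⁻¹⁆ = t * ⁅t⁻¹ * r * t, k⁆ * t⁻¹ := by simp only [commutatorElement_def]; group
      rw [e]
      exact q.p.h.n3 ht (hk.2 _ (conj_index_two q.p.h.T1_le q.p.h.idx1 ht hr))
    have hsqA : ∀ a ∈ Z' ⊔ Z, a * a = 1 := by
      intro a ha
      obtain ⟨b, hb, c, hc, rfl⟩ := (mem_sup_norm q.p.Z'NZ).1 ha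
      have e1 := q.p.h.cen c hc b (q.p.Z'W hb)
      calc b * c * (b * c) = b * (c * b) * c := by group
        _ = b * (b * c) * c := by rw [e1]
        _ = (b * b) * (c * c) := by group
        _ = 1 := by rw [q.p.h'.sqZ b hb, q.p.h.sqZ c hc, mul_one]
    have hFc : Nat.card F ≤ 8 := by
      apply q.p.h.e1 F
      · exact fun y hy => q.p.h.WT (q.p.A_le hy.1)
      · intro y hy
        refine ⟨(le_sup_right : Z ≤ Z' ⊔ Z) (q.p.h.Z1Z hy), fun t ht => ?_⟩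
        rw [q.p.h.Z1c (q.p.h.T1_le ht) hy]; exact one_mem _
      · intro a ha; exact hsqA a ha.1
      · intro t ht a ha
        exact modC_conj (fun k hk => hAinv t ht k hk)
          (fun r hr => conj_index_two q.p.h.T1_le q.p.h.idx1 ht hr) (fun n hn' => q.p.h.n1 ht hn') ha
      · intro t ht a ha
        exact ha.2 t ht
    have hZF : Z < F := by
      refine lt_of_le_of_ne ?_ ?_
      · intro y hy
        exact ⟨(le_sup_right : Z ≤ Z' ⊔ Z) hy, fun t ht => q.p.h.T1c ht hy⟩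
      · intro heq
        have hxF : x ∈ F := by
          refine ⟨(le_sup_left : Z' ≤ Z' ⊔ Z) hx, fun t ht => ?_⟩
          rw [SetLike.mem_coe, ← hD] at ht
          obtain ⟨d, hd, w, hw, rfl⟩ := (mem_sup_norm (inf_le_left.trans q.p.h.TNW)).1 ht
          have h6 := hall x hx hsx w hw
          rw [comm_mul_left', q.p.h'.cenc hx hd.2, mul_one, q.p.h.Z1c hd.1 h6, one_mul]
          exact h6
        rw [← heq] at hxF
        apply hx1
        rw [← hinf]; exact ⟨hxF, hx⟩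
    have h7 := card_lt_two hZF
    rw [q.p.h.cZ] at h7
    omega
  · -- Y W' = T'
    rw [h4, q.p.h'.cT] at h2
    -- it suffices to find an element of Z' outside Z1 with ⁅s, x⁆ ∈ Z1
    have hnZ : ∀ k ∈ Z', ∀ n ∈ Z1, k * n * k⁻¹ ∈ Z1 := fun k hk n hn' => hn k (q.p.Z'W hk) n hn'
    have suff : ∀ x ∈ Z', x ∉ Z1 → ⁅s, x⁆ ∈ Z1 → ∀ s ∈ W, ∀ z ∈ Z2', ⁅s, z⁆ ∈ Z1 := by
      intro x hx hx1 hsx
      have h5 : Z2' ≤ modC Z' (W : Set G) Z1 hnZ := by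
        apply q.p.h'.norm2
        · intro y hy; exact hy.1
        · intro t ht k hk
          rw [← h4] at ht
          obtain ⟨y, hy, w, hw, rfl⟩ := (mem_sup_norm (q.YT.trans q.p.h'.TNW)).1 ht
          have e : y * w * k * (y * w)⁻¹ = y * (w * k * w⁻¹) * y⁻¹ := by group
          rw [e, conj_of_mul_comm (q.p.h'.cen k hk.1 w hw)]
          exact modC_conj (fun k hk => conj_of_mem_normalizer hy.2 hk)
            (fun r hr => by
              have := q.p.h.nW _ (inv_mem hy.1) r hr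
              rwa [inv_inv] at this) (fun n hn' => q.p.h.n1 hy.1 hn') hk
        · intro hcon
          have : x ∈ modC Z' (W : Set G) Z1 hnZ := ⟨hx, fun w hw => hall x hx hsx w hw⟩
          exact hx1 (by rw [← hZ1]; exact hcon this)
      intro w hw z hz
      exact (h5 hz).2 w hw
    rcases q.X_cases q.p.h.cT1 hX with ⟨h5, h6⟩ | ⟨h5, h6⟩
    · -- X = T1
      obtain ⟨z3, hz3, hz3'⟩ := q.p.h'.exists_z3
      obtain ⟨t, ht, ht1⟩ := q.p.h'.exists_T2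
      have htT := q.p.h'.T2_le ht
      rw [← h4] at htT
      obtain ⟨y, hy, w, hw, rfl⟩ := (mem_sup_norm (q.YT.trans q.p.h'.TNW)).1 htT
      have hy1 : y ∉ T1' := fun h7 => ht1 (mul_mem h7 (q.p.h'.W_le1 hw))
      rw [q.p.h'.mem1 (q.YT hy) hz3 hz3', hZ1] at hy1
      have hzz := q.p.h'.c3 y (q.YT hy) z3 hz3
      have hyT1 : y ∈ T1 := by
        rw [← h5]; exact (le_sup_left : T ⊓ normalizer (Z' : Set G) ≤ _) hy
      apply suff ⁅y, z3⁆ (q.p.h'.Z2_le hzz) hy1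
      -- equivariance
      have hsz : ⁅s, z3⁆ ∈ Z := q.p.h.comW _ hs _ (q.p.Z'W hz3)
      have hx' : y * z3 * y⁻¹ ∈ Z' := conj_of_mem_normalizer hy.2 hz3
      have hsx' : ⁅s, y * z3 * y⁻¹⁆ ∈ Z := q.p.h.comW _ hs _ (q.p.Z'W hx')
      have hysy : s⁻¹ * (y * s * y⁻¹) ∈ W1 := by
        rcases mem_or_mem q.p.W1W q.p.idx hs hs' (q.p.h.nW y hy.1 s hs) with h7 | h7
        · exfalso
          apply hs'
          rw [q.p.eqW1] at h7 ⊢
          refine ⟨hs, ?_⟩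
          have h8 := mul_mem (mul_mem (inv_mem (mem_inf.1 hy).2) h7.2) (mem_inf.1 hy).2
          have e : y⁻¹ * (y * s * y⁻¹) * y = s := by group
          rwa [e] at h8
        · exact h7
      set w1 := s⁻¹ * (y * s * y⁻¹) with hw1
      have e1 : y * ⁅s, z3⁆ * y⁻¹ = ⁅s * w1, y * z3 * y⁻¹⁆ := by
        rw [hw1]; simp only [commutatorElement_def]; group
      have e2 : ⁅s * w1, y * z3 * y⁻¹⁆ = ⁅w1, y * z3 * y⁻¹⁆ * ⁅s, y * z3 * y⁻¹⁆ := by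
        rw [comm_mul_left', q.p.h.Z1c (q.p.h.WT hs) (hW1 w1 hysy _ hx'), one_mul]
      have e3 : y * ⁅s, z3⁆ * y⁻¹ = ⁅y, ⁅s, z3⁆⁆ * ⁅s, z3⁆ := conj_eq _ _
      have e4 : ⁅s, y * z3 * y⁻¹⁆ = ⁅s, ⁅y, z3⁆⁆ * ⁅s, z3⁆ := by
        rw [conj_eq y z3, comm_mul_W q.p.h (q.p.Z'W (q.p.h'.Z2_le hzz)) hsz]
      have h8 : ⁅w1, y * z3 * y⁻¹⁆ ∈ Z1 := hW1 w1 hysy _ hx'
      have h9 : ⁅y, ⁅s, z3⁆⁆ ∈ Z1 := q.p.h.T1c hyT1 hsz
      rw [e2, e3, e4, ← mul_assoc, mul_left_inj] at e1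
      rw [e1] at h9
      exact (mul_mem_cancel_left h8).1 h9
    · -- X = T
      rw [h6] at h2
      have hcD : Nat.card (T ⊓ W' : Subgroup G) = 1024 := by omega
      have p' := q.swap hcD
      have hD : (T ⊓ W') ⊔ W = T1 := by
        rcases p'.basic.2.2.2.2 with h7 | h7
        · exact h7
        · exfalso
          have h8 := p'.inf2 h7
          rw [inf_comm, hinf] at h8
          have h9 := q.p.h.cZ2
          rw [← h8, q.p.h.cZ1] at h9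
          omega
      obtain ⟨x, hx, hx1, hsx⟩ := q.p.lemV hD hinf hs
      exact suff x hx hx1 hsx

/-- Case b, the value of the cocycle. -/
theorem valueB (hX : T1 ≤ (T ⊓ normalizer (Z' : Set G)) ⊔ W) {s y : G} (hs : s ∈ W)
    (hy : y ∈ T ⊓ normalizer (Z' : Set G)) (hx : y⁻¹ * s⁻¹ * y * s ∈ W1) :
    ∀ z ∈ Z2', (y⁻¹ * s⁻¹ * y * s) * z = z * (y⁻¹ * s⁻¹ * y * s) := by
  intro z hz
  rcases q.p.basic.2.2.2.2 with hT | hT
  · have h1 := q.caseB hX hT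
    have hZ1 := q.Z1_eq hX hT
    apply mul_comm_of_comm
    rw [q.p.xcomm hs hy.1 hy.2 (q.p.h'.Z2_le hz)]
    have h2 := h1 s hs z hz
    have h3 : ⁅y, z⁆ ∈ Z := q.p.h.Z1Z (by rw [← hZ1]; exact q.p.h'.c2 y (q.YT hy) z hz)
    have h4 : ⁅s, ⁅y, z⁆⁆ = 1 := q.p.h.cenc h3 hs
    have h5 : ⁅s, y * z * y⁻¹⁆ = ⁅s, z⁆ := by
      rw [conj_eq, comm_mul_W q.p.h (q.p.h.ZW h3) (q.p.h.Z1Z h2), h4, one_mul]
    rw [h5]
    have h6 := conj_of_mul_comm (q.p.h.c1 _ (inv_mem (mem_inf.1 hy).1) _ h2)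
    rw [inv_inv] at h6
    rw [h6, mul_inv_cancel]
  · have h1 : y⁻¹ * s⁻¹ * y * s ∈ T2' := by
      rw [← hT]; exact (le_sup_left : W1 ≤ W1 ⊔ W') hx
    exact mul_comm_of_comm (q.p.h'.T2c h1 hz)

end Pair

end Cfsg.Agent.H309.Ru
end

-- part: H309/Ru/TypesA
section
/-!
# S3204: the type analysis, case a (helper309)
-/

set_option autoImplicit false

namespace Cfsg.Agent.H309.Ru

open Subgroup Pointwise
open scoped commutatorElement

variable {G : Type*} [Group G]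

/-- `α(v) ∉ Z2`. -/
theorem Pair0.alpha_not [Finite G] {T T1 T2 W Z4 Z Z2 Z1 T' T1' T2' W' Z4' Z' Z2' Z1' W1 : Subgroup G}
    (p : Pair0 T T1 T2 W Z4 Z Z2 Z1 T' T1' T2' W' Z4' Z' Z2' Z1' W1) (hZ2 : Z2' = Z2)
    {s v : G} (hs : s ∈ W) (hs' : s ∉ W1) (hv : v ∈ Z') (hv' : v ∉ Z2') : ⁅s, v⁆ ∉ Z2 := by
  intro hcon
  apply hs'
  rw [p.eqW1]
  refine ⟨hs, mem_normalizer_of_conj (fun k hk => ?_)⟩
  have hZ : ∀ k ∈ Z2', ⁅s, k⁆ = 1 := fun k hk => p.h.cenc (p.h.Z2_le (by rwa [← hZ2])) hs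
  apply conj_mem_of_comm hk
  rcases p.h'.mod3 hv hv' hk with h1 | h1
  · rw [hZ k h1]; exact one_mem _
  · have e : k = v * (v⁻¹ * k) := by group
    have h2 : ⁅s, v * (v⁻¹ * k)⁆ = ⁅s, v⁆ * ⁅s, v⁻¹ * k⁆ :=
      Pair.comm_mul_W p.h (p.Z'W hv) (by rw [hZ _ h1]; exact one_mem _)
    rw [e, h2, hZ _ h1, mul_one]
    rw [← hZ2] at hcon
    exact p.h'.Z2_le hcon

namespace Pair

variable [Finite G] {T T1 T2 W Z4 Z Z2 Z1 T' T1' T2' W' Z4' Z' Z2' Z1' W1 : Subgroup G}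
  (q : Pair T T1 T2 W Z4 Z Z2 Z1 T' T1' T2' W' Z4' Z' Z2' Z1' W1)
include q

theorem Z2_eq (hX : T2 ≤ (T ⊓ normalizer (Z' : Set G)) ⊔ W) (hT : W1 ⊔ W' = T2') : Z2' = Z2 := by
  have hinf := q.p.inf2 hT
  have hle : Z2' ≤ Z := by rw [← hinf]; exact inf_le_left
  have hinv : ∀ t ∈ T2, ∀ z ∈ Z2', t * z * t⁻¹ ∈ Z2' := by
    intro t ht z hz
    obtain ⟨y, hy, w, hw, rfl⟩ := (mem_sup_norm (inf_le_left.trans q.p.h.TNW)).1 (hX ht)
    have e : y * w * z * (y * w)⁻¹ = y * (w * z * w⁻¹) * y⁻¹ := by group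
    rw [e, conj_of_mul_comm (q.p.h.cen z (hle hz) w hw)]
    exact q.p.h'.n2 (q.YT hy) hz
  apply eq_of_le_of_card_le
  · intro z hz
    by_contra hcon
    have h1 : Z2 ≤ Z2' := by
      intro a ha
      obtain ⟨t, ht, e⟩ := q.p.h.exists_comm_T2 (hle hz) hcon ha
      rw [← e]
      exact comm_mem_of_conj hz (hinv t ht z hz)
    have h2 := eq_of_le_of_card_le h1 (by rw [q.p.h.cZ2, q.p.h'.cZ2])
    exact hcon (by rw [h2]; exact hz)
  · rw [q.p.h.cZ2, q.p.h'.cZ2]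

theorem caseA_not_T (hXT : (T ⊓ normalizer (Z' : Set G)) ⊔ W = T) (hT : W1 ⊔ W' = T2')
    (hZ2 : Z2' = Z2) : False := by
  have hinf : Z ⊓ Z' = Z2 := (q.p.inf2 hT).trans hZ2
  have hW1T2 : W1 ≤ T2' := by rw [← hT]; exact le_sup_left
  have h1 := q.cX
  have h2 := q.cX'
  have h3 := q.cD_le
  rw [hXT, q.p.h.cT] at h1
  have hcD : Nat.card (T ⊓ W' : Subgroup G) = 1024 := by
    have h4 := Nat.le_of_dvd Nat.card_pos (card_dvd_of_le q.sup_le_T')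
    rw [q.p.h'.cT] at h4
    have h5 : Nat.card (T ⊓ normalizer (Z' : Set G) : Subgroup G) = 8192 := by omega
    rw [h5] at h2
    have h6 : 8192 * 2048 ≤ 16384 * Nat.card (T ⊓ W' : Subgroup G) := by
      rw [← h2]; exact Nat.mul_le_mul_right _ h4
    omega
  have p' := q.swap hcD
  -- A = Z' Z
  set A : Subgroup G := Z' ⊔ Z with hA
  have hcA : Nat.card A = 16 := by
    have h4 := card_sup_mul q.p.Z'NZ
    rw [← hA, q.p.h'.cZ, q.p.h.cZ, inf_comm, hinf, q.p.h.cZ2] at h4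
    omega
  have hAW : A ≤ W := q.p.A_le
  have hAinv : ∀ t ∈ T, ∀ k ∈ A, t * k * t⁻¹ ∈ A := by
    intro t ht k hk
    rw [← hXT] at ht
    obtain ⟨y, hy, w, hw, rfl⟩ := (mem_sup_norm (inf_le_left.trans q.p.h.TNW)).1 ht
    have e : y * w * k * (y * w)⁻¹ = y * (w * k * w⁻¹) * y⁻¹ := by group
    rw [e]
    have h4 : w * k * w⁻¹ ∈ A :=
      conj_mem_of_comm hk ((le_sup_right : Z ≤ Z' ⊔ Z) (q.p.h.comW _ hw _ (hAW hk)))
    obtain ⟨a, ha, b, hb, e2⟩ := (mem_sup_norm q.p.Z'NZ).1 h4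
    rw [← e2]
    have e3 : y * (a * b) * y⁻¹ = (y * a * y⁻¹) * (y * b * y⁻¹) := by group
    rw [e3]
    exact mul_mem ((le_sup_left : Z' ≤ Z' ⊔ Z) (conj_of_mem_normalizer hy.2 ha))
      ((le_sup_right : Z ≤ Z' ⊔ Z) (q.p.h.n3 hy.1 hb))
  obtain ⟨v, hv, hv'⟩ := q.p.h'.exists_z3
  have hv2 : v ∉ Z2 := by rwa [← hZ2]
  have hvZ : v ∉ Z := by
    intro h4
    apply hv2
    rw [← hinf]; exact ⟨h4, hv⟩
  have hZ4A : Z4 = A := by
    apply eq_of_le_of_card_le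
    · apply q.p.h.norm4 A hAW hAinv
      intro h4
      exact hvZ (h4 ((le_sup_left : Z' ≤ Z' ⊔ Z) hv))
    · rw [hcA, q.p.h.cZ4]
  obtain ⟨z, hz, hz'⟩ := q.p.h.exists_z3
  obtain ⟨s, hs, hs'⟩ := exists_s q.p
  obtain ⟨r, hr, hr'⟩ := exists_s p'
  have hZW' := q.p.ZW'
  have hZ'W := q.p.Z'W
  -- U and E
  have hZ2U : Z2 ≤ W ⊓ W' := le_inf q.p.h.Z2W ((q.p.h.Z2_le).trans hZW')
  have hZ2Z' : Z2 ≤ Z' := by rw [← hZ2]; exact q.p.h'.Z2_le
  have hWn : ∀ k ∈ W, ∀ n ∈ Z2, k * n * k⁻¹ ∈ Z2 := fun k hk n hn => q.p.h.n2 (q.p.h.WT hk) hn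
  have hW'n : ∀ k ∈ W', ∀ n ∈ Z2, k * n * k⁻¹ ∈ Z2 := fun k hk n hn => by
    rw [conj_of_mul_comm (q.p.h'.cen n (hZ2Z' hn) k hk)]; exact hn
  have hUn : ∀ k ∈ (W ⊓ W' : Subgroup G), ∀ n ∈ Z2, k * n * k⁻¹ ∈ Z2 := fun k hk n hn => hWn k hk.1 n hn
  set E : Subgroup G := modC (W ⊓ W') ((W : Set G) ∪ (W' : Set G)) Z2 hUn with hE
  have hZ2E : Z2 ≤ E := by
    intro x hx
    refine ⟨hZ2U hx, fun t ht => ?_⟩
    rcases ht with ht | ht
    · rw [q.p.h.cenc (q.p.h.Z2_le hx) ht]; exact one_mem _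
    · rw [q.p.h'.cenc (hZ2Z' hx) ht]; exact one_mem _
  have hEinv : ∀ t ∈ T, ∀ k ∈ E, t * k * t⁻¹ ∈ E := by
    intro t ht k hk
    rw [← hXT] at ht
    obtain ⟨y, hy, w, hw, rfl⟩ := (mem_sup_norm (inf_le_left.trans q.p.h.TNW)).1 ht
    have e : y * w * k * (y * w)⁻¹ = y * (w * k * w⁻¹) * y⁻¹ := by group
    rw [e]
    have h4 : w * k * w⁻¹ ∈ E := conj_mem_of_comm hk (hZ2E (hk.2 w (Or.inl hw)))
    apply modC_conj _ _ (fun n hn => q.p.h.n2 hy.1 hn) h4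
    · intro u hu
      exact ⟨q.p.h.nW y hy.1 u hu.1, q.p.h'.nW y (q.YT hy) u hu.2⟩
    · intro u hu
      rcases hu with hu | hu
      · left
        have := q.p.h.nW _ (inv_mem hy.1) u hu
        rwa [inv_inv] at this
      · right
        have := q.p.h'.nW _ (inv_mem (q.YT hy)) u hu
        rwa [inv_inv] at this
  -- it suffices to find an element of E outside Z
  suffices hEZ : ¬ E ≤ Z by
    have h4 : Z4 ≤ E := q.p.h.norm4 E (fun x hx => hx.1.1) hEinv hEZ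
    have h5 : v ∈ E := h4 (by rw [hZ4A]; exact (le_sup_left : Z' ≤ Z' ⊔ Z) hv)
    exact q.p.alpha_not hZ2 hs hs' hv hv' (h5.2 s (Or.inl hs))
  -- U0'
  set D : Subgroup G := T ⊓ W' with hD
  have hUD : (W ⊓ W' : Subgroup G) ≤ D := inf_le_inf_right _ q.p.h.WT
  obtain ⟨a, ha, b, hb, haU, hbU, habU⟩ := exists_gen4 (n := 10) (by rw [hcD]; norm_num) hUD
    (by rw [hcD, q.p.cU])
  have hUU : ∀ x ∈ W ⊓ W', ∀ y ∈ W ⊓ W', ⁅x, y⁆ ∈ Z2 := by
    intro x hx y hy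
    rw [← hinf]; exact q.p.commU hx hy
  have hDn : ∀ k ∈ D, ∀ n ∈ Z2, k * n * k⁻¹ ∈ Z2 := fun k hk n hn => q.p.h.n2 hk.1 hn
  have hgen : ∀ u ∈ W ⊓ W', ⁅a, u⁆ ∈ Z2 → ⁅b, u⁆ ∈ Z2 → ∀ d ∈ D, ⁅d, u⁆ ∈ Z2 := by
    intro u hu h4 h5 d hd
    have h6 : D ≤ centMod D Z2 hDn u := by
      apply gen4 hUD (by rw [hcD, q.p.cU]) ha hb haU hbU habU
      · intro x hx; exact ⟨hUD hx, hUU x hx u hu⟩
      · exact ⟨ha, h4⟩
      · exact ⟨hb, h5⟩
    exact (h6 hd).2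
  have hnU' : ∀ k ∈ (W ⊓ W' : Subgroup G), ∀ n ∈ Z2', k⁻¹ * n * k ∈ Z2' := by
    intro k hk n hn
    have h4 := q.p.h'.cen n (q.p.h'.Z2_le hn) _ (inv_mem hk.2)
    rw [h4]; simpa using hn
  have hnex : ∃ u ∈ W ⊓ W', u ∉ A ∧ ∀ d ∈ D, ⁅d, u⁆ ∈ Z2 := by
    by_contra hcon
    push Not at hcon
    set K0 : Subgroup G := modC (W ⊓ W') ({a} : Set G) Z2 hUn with hK0
    set K1 : Subgroup G := K0 ⊓ A with hK1
    have h4 := card_comm_le (K := W ⊓ W') (K0 := K0) (L := Z') (N := Z2') a (fun x hx => hx.1)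
      q.p.h'.Z2_le (fun w hw => q.p.h'.comW _ ha.2 _ hw.2)
      (fun w hw hw' => ⟨hw, fun t ht => by
        rw [Set.mem_singleton_iff] at ht; rw [ht, ← hZ2]; exact hw'⟩) hnU'
    have h5 := card_comm_le (K := K0) (K0 := K1) (L := Z') (N := Z2') b inf_le_left
      q.p.h'.Z2_le (fun w hw => q.p.h'.comW _ hb.2 _ hw.1.2)
      (fun w hw hw' => by
        refine mem_inf.2 ⟨hw, ?_⟩
        by_contra hwA
        obtain ⟨d, hd, hd'⟩ := hcon w hw.1 hwA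
        exact hd' (hgen w hw.1 (hw.2 a rfl) (by rw [← hZ2]; exact hw') d hd))
      (fun w hw n hn => hnU' w hw.1 n hn)
    have h6 : Nat.card K1 ≤ 16 := by
      rw [← hcA]; exact Nat.le_of_dvd Nat.card_pos (card_dvd_of_le inf_le_right)
    rw [q.p.cU, q.p.h'.cZ, q.p.h'.cZ2] at h4
    rw [q.p.h'.cZ, q.p.h'.cZ2] at h5
    omega
  obtain ⟨u, hu, huA, hud⟩ := hnex
  -- commutators with W1
  have hW1N : ∀ w ∈ W1, ∀ d ∈ W', w * d * w⁻¹ ∈ W' := fun w hw d hd => q.p.h'.nW w (q.p.le' hw) d hd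
  have huw : ∀ w ∈ W1, ⁅w, u⁆ ∈ Z2 := by
    intro w hw
    have hwW := q.p.W1W hw
    by_contra hcon
    have he : ⁅w, u⁆ ∈ Z := q.p.h.comW _ hwW _ hu.1
    have h4 : ⁅r, ⁅w, u⁆⁆ ∉ Z2' := p'.alpha_not hZ2.symm hr hr' he hcon
    apply h4
    set e := ⁅w, u⁆ with hed
    have hc : ⁅r, u⁆ ∈ Z' := q.p.h'.comW _ hr _ hu.2
    set c := ⁅r, u⁆ with hcd
    have hw' : ⁅w, r⁆ ∈ D := by
      rw [commutatorElement_def]
      apply mul_mem_index_two p'.W1W p'.idx (hW1N w hw r hr) (inv_mem hr) _ (by rwa [inv_mem_iff])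
      intro h5
      apply hr'
      rw [p'.eqW1] at h5 ⊢
      refine ⟨hr, ?_⟩
      have hwN : w ∈ normalizer (Z : Set G) := q.p.h.WNZ hwW
      have h6 := mul_mem (mul_mem (inv_mem hwN) h5.2) hwN
      have e : w⁻¹ * (w * r * w⁻¹) * w = r := by group
      rwa [e] at h6
    set w' := ⁅w, r⁆ with hw'd
    have heW' : e ∈ W' := hZW' he
    have hre : ⁅r, e⁆ ∈ Z' := q.p.h'.comW _ hr _ heW'
    have hw'e : ⁅w', e⁆ ∈ Z2 := q.p.h.c3 _ hw'.1 e he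
    have hw'u : ⁅w', u⁆ ∈ Z2 := hud w' hw'
    have hwc : ⁅w, c⁆ ∈ Z2 := by
      rw [← hZ2]; exact q.p.h'.c3 w (q.p.le' hw) c hc
    have E1 : ⁅w' * r, e * u⁆ = ⁅w, c⁆ * c := by
      rw [hw'd, hed, hcd, ← conj_eq w ⁅r, u⁆]
      simp only [commutatorElement_def]; group
    have E2 : ⁅w' * r, e * u⁆ = ⁅w' * r, e⁆ * (e * ⁅w' * r, u⁆ * e⁻¹) := by
      simp only [commutatorElement_def]; group
    have E3 : ⁅w' * r, e⁆ = ⁅r, e⁆ * ⁅w', e⁆ := by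
      rw [comm_mul_left', q.p.h'.cenc hre hw'.2, one_mul]
    have E4 : ⁅w' * r, u⁆ = c * ⁅w', u⁆ := by
      rw [comm_mul_left', q.p.h'.cenc hc hw'.2, one_mul]
    have hcu : c * ⁅w', u⁆ ∈ Z' := mul_mem hc (hZ2Z' hw'u)
    rw [E2, E3, E4, conj_of_mul_comm (q.p.h'.cen _ hcu e heW')] at E1
    -- ⁅r,e⁆ * a * (c * b) = d * c
    have E5 : ⁅r, e⁆ = ⁅w, c⁆ * (c * ⁅w', u⁆⁻¹ * c⁻¹) * ⁅w', e⁆⁻¹ := by
      calc ⁅r, e⁆ = (⁅r, e⁆ * ⁅w', e⁆ * (c * ⁅w', u⁆)) * (⁅w', u⁆⁻¹ * c⁻¹) * ⁅w', e⁆⁻¹ := by group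
        _ = (⁅w, c⁆ * c) * (⁅w', u⁆⁻¹ * c⁻¹) * ⁅w', e⁆⁻¹ := by rw [E1]
        _ = _ := by group
    rw [hZ2, E5]
    refine mul_mem (mul_mem hwc ?_) (inv_mem hw'e)
    exact hWn c (hZ'W hc) _ (inv_mem hw'u)
  -- adjust by v
  have hvW := hZ'W hv
  have hsv : ⁅s, v⁆ ∈ Z := q.p.h.comW _ hs _ hvW
  have hsv2 : ⁅s, v⁆ ∉ Z2 := q.p.alpha_not hZ2 hs hs' hv hv'
  have hmod : ∀ a ∈ Z, ∀ b ∈ Z, a ∉ Z2 → b ∉ Z2 → a * b ∈ Z2 := fun a ha b hb ha' hb' =>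
    mul_mem_index_two q.p.h.Z2_le (by rw [q.p.h.cZ2, q.p.h.cZ]) ha hb ha' hb'
  have hmod' : ∀ a ∈ Z', ∀ b ∈ Z', a ∉ Z2 → b ∉ Z2 → a * b ∈ Z2 := fun a ha b hb ha' hb' => by
    rw [← hZ2] at ha' hb' ⊢
    exact mul_mem_index_two q.p.h'.Z2_le (by rw [q.p.h'.cZ2, q.p.h'.cZ]) ha hb ha' hb'
  have step1 : ∃ u1 ∈ W ⊓ W', u1 ∉ A ∧ (∀ d ∈ D, ⁅d, u1⁆ ∈ Z2) ∧ ∀ w ∈ W, ⁅w, u1⁆ ∈ Z2 := by
    by_cases h4 : ⁅s, u⁆ ∈ Z2
    · exact ⟨u, hu, huA, hud, comm_W_of_s q.p.W1W q.p.idx hWn hs hs' huw h4⟩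
    · refine ⟨u * v, mul_mem hu (mem_inf.2 ⟨hvW, q.p.h'.ZW hv⟩), ?_, ?_, ?_⟩
      · intro h5
        exact huA ((mul_mem_cancel_right ((le_sup_left : Z' ≤ Z' ⊔ Z) hv)).1 h5)
      · intro d hd
        have e : ⁅d, u * v⁆ = ⁅d, u⁆ * (u * ⁅d, v⁆ * u⁻¹) := by simp only [commutatorElement_def]; group
        rw [e, q.p.h'.cenc hv hd.2]
        simpa using hud d hd
      · apply comm_W_of_s q.p.W1W q.p.idx hWn hs hs'
        · intro w hw
          have e : ⁅w, u * v⁆ = ⁅w, u⁆ * (u * ⁅w, v⁆ * u⁻¹) := by simp only [commutatorElement_def]; group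
          rw [e]
          apply mul_mem (huw w hw) (hWn u hu.1 _ _)
          rw [← hZ2]; exact q.p.h'.c3 w (q.p.le' hw) v hv
        · rw [comm_mul_W q.p.h hu.1 hsv]
          exact hmod _ (q.p.h.comW _ hs _ hu.1) _ hsv h4 hsv2
  obtain ⟨u1, hu1, hu1A, hud1, huw1⟩ := step1
  have hzW := q.p.h.ZW hz
  have hzW' := hZW' hz
  have hrz : ⁅r, z⁆ ∈ Z' := q.p.h'.comW _ hr _ hzW'
  have hrz2 : ⁅r, z⁆ ∉ Z2 := by
    have := p'.alpha_not hZ2.symm hr hr' hz hz'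
    rwa [hZ2] at this
  have step2 : ∃ u2 ∈ W ⊓ W', u2 ∉ A ∧ (∀ d ∈ W', ⁅d, u2⁆ ∈ Z2) ∧ ∀ w ∈ W, ⁅w, u2⁆ ∈ Z2 := by
    by_cases h4 : ⁅r, u1⁆ ∈ Z2
    · exact ⟨u1, hu1, hu1A, comm_W_of_s p'.W1W p'.idx hW'n hr hr' hud1 h4, huw1⟩
    · refine ⟨u1 * z, mul_mem hu1 (mem_inf.2 ⟨hzW, hzW'⟩), ?_, ?_, ?_⟩
      · intro h5
        exact hu1A ((mul_mem_cancel_right ((le_sup_right : Z ≤ Z' ⊔ Z) hz)).1 h5)
      · apply comm_W_of_s p'.W1W p'.idx hW'n hr hr'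
        · intro d hd
          have e : ⁅d, u1 * z⁆ = ⁅d, u1⁆ * (u1 * ⁅d, z⁆ * u1⁻¹) := by
            simp only [commutatorElement_def]; group
          rw [e]
          exact mul_mem (hud1 d hd) (hWn u1 hu1.1 _ (q.p.h.c3 d hd.1 z hz))
        · rw [comm_mul_W q.p.h' hu1.2 hrz]
          exact hmod' _ (q.p.h'.comW _ hr _ hu1.2) _ hrz h4 hrz2
      · intro w hw
        have e : ⁅w, u1 * z⁆ = ⁅w, u1⁆ * (u1 * ⁅w, z⁆ * u1⁻¹) := by simp only [commutatorElement_def]; group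
        rw [e, q.p.h.cenc hz hw]
        simpa using huw1 w hw
  obtain ⟨u2, hu2, hu2A, hud2, huw2⟩ := step2
  intro hcon
  apply hu2A
  apply (le_sup_right : Z ≤ Z' ⊔ Z)
  apply hcon
  refine ⟨hu2, fun t ht => ?_⟩
  rcases ht with ht | ht
  · exact huw2 t ht
  · exact hud2 t ht

theorem valueA (hZ2 : Z2' = Z2) (hZ1 : Z1' = Z1) {s y : G} (hs : s ∈ W) (hs' : s ∉ W1)
    (hy : y ∈ T ⊓ normalizer (Z' : Set G)) (hx : y⁻¹ * s⁻¹ * y * s ∈ W1) :
    y⁻¹ * s⁻¹ * y * s ∈ T1' ↔ y ∈ T1 := by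
  obtain ⟨v, hv, hv'⟩ := q.p.h'.exists_z3
  have hsv : ⁅s, v⁆ ∈ Z := q.p.h.comW _ hs _ (q.p.Z'W hv)
  have hsv2 : ⁅s, v⁆ ∉ Z2 := q.p.alpha_not hZ2 hs hs' hv hv'
  have h3 : ⁅y, v⁆ ∈ Z := q.p.h.Z2_le (by rw [← hZ2]; exact q.p.h'.c3 y (q.YT hy) v hv)
  have h5 : ⁅s, y * v * y⁻¹⁆ = ⁅s, v⁆ := by
    rw [conj_eq, comm_mul_W q.p.h (q.p.h.ZW h3) hsv, q.p.h.cenc h3 hs, one_mul]
  rw [q.p.h'.mem1 (q.p.le' hx) hv hv', q.p.xcomm hs hy.1 hy.2 hv, h5, hZ1]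
  have h6 : ⁅s, v⁆ * (y⁻¹ * ⁅s, v⁆ * y)⁻¹ = ⁅y⁻¹, ⁅s, v⁆⁆⁻¹ := by
    rw [commutatorElement_def y⁻¹]; group
  rw [h6, inv_mem_iff, ← q.p.h.mem1 (inv_mem (mem_inf.1 hy).1) hsv hsv2, inv_mem_iff]

end Pair

end Cfsg.Agent.H309.Ru
end

-- part: H309/Ru/Transfer
section
/-!
# S3204: the transfer argument (helper309)
-/

set_option autoImplicit false

namespace Cfsg.Agent.H309.Ru

open Subgroup Pointwise
open scoped commutatorElement

variable {G : Type*} [Group G]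

theorem stab_eq {Z : Subgroup G} (g : G) :
    MulAction.stabilizer G (g : G ⧸ normalizer (Z : Set G)) =
      normalizer ((MulAut.conj g • Z : Subgroup G) : Set G) := by
  ext x
  rw [MulAction.mem_stabilizer_iff, smul_mk_eq_iff, ← conj_smul_normalizer, mem_conj_smul]

variable [Finite G] {T T1 T2 W Z4 Z Z2 Z1 : Subgroup G} (h : Hyp T T1 T2 W Z4 Z Z2 Z1)
  (S : Sylow 2 G) (hS : (S : Subgroup G) = T)

include hS in
theorem exists_rep (ω : G ⧸ normalizer (Z : Set G)) (hTZ : T ≤ normalizer (Z : Set G)) :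
    ∃ g : G, (g : G ⧸ normalizer (Z : Set G)) = ω ∧
      (T ⊓ normalizer ((MulAut.conj g • Z : Subgroup G) : Set G) : Subgroup G) ≤ MulAut.conj g • T := by
  have : Fact (Nat.Prime 2) := ⟨Nat.prime_two⟩
  obtain ⟨g, rfl⟩ := QuotientGroup.mk_surjective ω
  have hp : IsPGroup 2 T := by rw [← hS]; exact S.2
  obtain ⟨m, hm, hle⟩ := exists_conj_le (g • S) (normalizer ((MulAut.conj g • Z : Subgroup G) : Set G))
    (by rw [Sylow.coe_subgroup_smul, ← conj_smul_normalizer]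
        apply conj_smul_mono; rw [hS]; exact hTZ)
    (T ⊓ normalizer ((MulAut.conj g • Z : Subgroup G) : Set G)) (hp.to_le inf_le_left) inf_le_right
  rw [Sylow.coe_subgroup_smul, hS] at hle
  have hZ : MulAut.conj (m⁻¹ * g) • Z = MulAut.conj g • Z := by
    have h1 := mem_normalizer_iff_conj.1 hm
    rw [conj_mul_smul]
    conv_lhs => rw [← h1]
    rw [conj_inv_smul_smul]
  refine ⟨m⁻¹ * g, ?_, ?_⟩
  · rw [QuotientGroup.eq]
    rw [← conj_smul_normalizer, mem_conj_smul] at hm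
    have e : (m⁻¹ * g)⁻¹ * g = g⁻¹ * m * g := by group
    rw [e]; exact hm
  · rw [hZ, conj_mul_smul]
    have h1 := conj_smul_mono (g := m⁻¹) hle
    rwa [conj_inv_smul_smul] at h1

theorem W1_mem {T T1 T2 W Z4 Z Z2 Z1 T' T1' T2' W' Z4' Z' Z2' Z1' W1 : Subgroup G}
    (q : Pair T T1 T2 W Z4 Z Z2 Z1 T' T1' T2' W' Z4' Z' Z2' Z1' W1) {s y : G} (hs : s ∈ W) (hs' : s ∉ W1)
    (hy : y ∈ T ⊓ normalizer (Z' : Set G)) : y⁻¹ * s⁻¹ * y * s ∈ W1 := by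
  have h1 := q.p.h.nW _ (inv_mem (mem_inf.1 hy).1) _ (inv_mem hs)
  rw [inv_inv] at h1
  apply mul_mem_index_two q.p.W1W q.p.idx h1 hs _ hs'
  intro h2
  apply hs'
  rw [q.p.eqW1] at h2 ⊢
  refine mem_inf.2 ⟨hs, ?_⟩
  have h3 := mul_mem (mul_mem (mem_inf.1 hy).2 (mem_inf.1 h2).2) (inv_mem (mem_inf.1 hy).2)
  have e : y * (y⁻¹ * s⁻¹ * y) * y⁻¹ = s⁻¹ := by group
  rw [e] at h3
  exact (inv_mem_iff).1 h3

include h in
theorem V_of_X {M : Subgroup G} (φ : M →* ℤˣ) {ω : G ⧸ M} {Ta : Subgroup G} (hTa : Ta ≤ T)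
    (hc : Nat.card T = 2 * Nat.card Ta) (hX : Ta ≤ (T ⊓ MulAction.stabilizer G ω) ⊔ W)
    (hV : ∀ x ∈ (T ⊓ MulAction.stabilizer G ω) ⊔ W,
      VV φ (orb ((T ⊓ MulAction.stabilizer G ω) ⊔ W) ω) x = 1) {t : G} (ht : t ∈ Ta) :
    VV φ (orb T ω) t = 1 := by
  by_cases hXT : (T ⊓ MulAction.stabilizer G ω) ⊔ W = T
  · rw [hXT] at hV
    exact hV t (hTa ht)
  · have h1 := card_lt_two (lt_of_le_of_ne (XX_le h) hXT)
    have h2 : Ta = (T ⊓ MulAction.stabilizer G ω) ⊔ W := eq_of_le_of_card_le hX (by omega)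
    apply V_T_of_X φ h hTa hc h2.symm _ ht
    rw [h2]; exact hV

/-- From the values on `Y` to the values on `X`. -/
theorem V_X_one {M : Subgroup G} (φ : M →* ℤˣ) {ω : G ⧸ M} (h : Hyp T T1 T2 W Z4 Z Z2 Z1)
    (hWs : ¬ W ≤ MulAction.stabilizer G ω)
    (hV : ∀ y ∈ T ⊓ MulAction.stabilizer G ω,
      VV φ (orb ((T ⊓ MulAction.stabilizer G ω) ⊔ W) ω) y = 1) :
    ∀ x ∈ (T ⊓ MulAction.stabilizer G ω) ⊔ W,
      VV φ (orb ((T ⊓ MulAction.stabilizer G ω) ⊔ W) ω) x = 1 := by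
  intro x hx
  obtain ⟨w, hw, hwx⟩ := XX_spec h x hx
  have hwX : w ∈ (T ⊓ MulAction.stabilizer G ω) ⊔ W := (le_sup_right : W ≤ _) hw
  have hy : w⁻¹ * x ∈ (T ⊓ MulAction.stabilizer G ω) ⊔ W := mul_mem (inv_mem hwX) hx
  have e : x = w * (w⁻¹ * x) := by group
  rw [e, V_mul φ hy, V_PW φ h le_sup_right hWs (XX_spec h) hw, one_mul]
  exact hV _ (mem_inf.2 ⟨XX_le h hy, hwx⟩)

theorem card_half (h : Hyp T T1 T2 W Z4 Z Z2 Z1) {X : Subgroup G} (hne : ¬ W ≤ X)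
    (hc : ¬ 4 * Nat.card (W ⊓ X : Subgroup G) ≤ Nat.card W) :
    Nat.card W = 2 * Nat.card (W ⊓ X : Subgroup G) := by
  obtain ⟨k, hk, hck⟩ := dvd_of_le (inf_le_left : (W ⊓ X : Subgroup G) ≤ W) (cW' h)
  have h1 := card_lt_two (lt_of_le_of_ne (inf_le_left : (W ⊓ X : Subgroup G) ≤ W)
    (fun heq => hne (inf_eq_left.1 heq)))
  rw [h.cW] at h1 hc ⊢
  rw [hck] at h1 hc ⊢
  interval_cases k <;> omega

include h hS in
theorem mkPair {g : G} (hne : MulAut.conj g • Z ≠ Z)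
    (hY : (T ⊓ normalizer ((MulAut.conj g • Z : Subgroup G) : Set G) : Subgroup G) ≤ MulAut.conj g • T)
    (hc : Nat.card W = 2 * Nat.card (W ⊓ normalizer ((MulAut.conj g • Z : Subgroup G) : Set G) :
      Subgroup G)) :
    Pair T T1 T2 W Z4 Z Z2 Z1 (MulAut.conj g • T) (MulAut.conj g • T1) (MulAut.conj g • T2)
      (MulAut.conj g • W) (MulAut.conj g • Z4) (MulAut.conj g • Z) (MulAut.conj g • Z2)
      (MulAut.conj g • Z1) (W ⊓ normalizer ((MulAut.conj g • Z : Subgroup G) : Set G)) where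
  p :=
    { h := h
      h' := h.conj g
      ne := hne.symm
      eqW1 := rfl
      idx := hc
      le' := (inf_le_inf_right _ h.WT).trans hY }
  YT := hY
  nW' := fun hle => hne (h.conjZ_of_le S hS hle)

theorem rep_ne {Z : Subgroup G} {g : G} (hω : (g : G ⧸ normalizer (Z : Set G)) ≠ ((1 : G) : G ⧸ _)) :
    MulAut.conj g • Z ≠ Z := by
  intro heq
  apply hω
  symm
  rw [QuotientGroup.eq, inv_one, one_mul]
  exact mem_normalizer_iff_conj.2 heq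

include h hS in
theorem orbB (φ : normalizer (Z : Set G) →* ℤˣ)
    (hφ : ∀ m : normalizer (Z : Set G), (∀ z ∈ Z2, (m : G) * z = z * m) → φ m = 1)
    (ω : G ⧸ normalizer (Z : Set G)) (hω : ω ≠ ((1 : G) : G ⧸ normalizer (Z : Set G))) {t : G} (ht : t ∈ T1)
    (ht2 : t ∉ T2) : VV φ (orb T ω) t = 1 := by
  obtain ⟨g, rfl, hY⟩ := exists_rep S hS ω h.TNZ
  have hne := rep_ne hω
  have hst := stab_eq (Z := Z) g
  have hWs : ¬ W ≤ MulAction.stabilizer G (g : G ⧸ normalizer (Z : Set G)) := by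
    rw [hst]; exact fun hle => hne (h.conjZ_of_le' S hS hle)
  by_cases hX : T1 ≤ (T ⊓ MulAction.stabilizer G (g : G ⧸ normalizer (Z : Set G))) ⊔ W
  · apply V_of_X h φ h.T1_le h.idx1 hX _ ht
    by_cases hc4 : 4 * Nat.card (W ⊓ MulAction.stabilizer G (g : G ⧸ normalizer (Z : Set G)) : Subgroup G) ≤
        Nat.card W
    · intro x hx
      exact V_P4 φ h (XX_le h) le_sup_right hWs (XX_spec h) hc4 hx
    · have hc := card_half h hWs hc4
      apply V_X_one φ h hWs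
      intro y hy
      have hc' := hc
      rw [hst] at hc' hX
      have q := mkPair h S hS hne hY hc'
      obtain ⟨s, hs, hs'⟩ := Pair.exists_s q.p
      have hy' := hy
      rw [hst] at hy'
      have hx := W1_mem q hs hs' hy'
      rw [V_P2 φ h le_sup_right (XX_spec h) hc hs (by
        rw [hst]; exact fun h1 => hs' (mem_inf.2 ⟨hs, h1⟩))
        ((le_sup_left : T ⊓ MulAction.stabilizer G _ ≤ _) hy) (mem_inf.1 hy).2]
      have hxM : g⁻¹ * (y⁻¹ * s⁻¹ * y * s) * g ∈ normalizer (Z : Set G) := by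
        rw [← mem_conj_smul, conj_smul_normalizer]; exact hx.2
      rw [kap_fix φ g _ hxM]
      apply hφ
      intro z hz
      have h1 := q.valueB hX hs hy' hx _ (conj_mem_conj_smul hz)
      show g⁻¹ * (y⁻¹ * s⁻¹ * y * s) * g * z = z * (g⁻¹ * (y⁻¹ * s⁻¹ * y * s) * g)
      calc g⁻¹ * (y⁻¹ * s⁻¹ * y * s) * g * z = g⁻¹ * ((y⁻¹ * s⁻¹ * y * s) * (g * z * g⁻¹)) * g := by group
        _ = g⁻¹ * ((g * z * g⁻¹) * (y⁻¹ * s⁻¹ * y * s)) * g := by rw [h1]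
        _ = _ := by group
  · exact V_T φ h hWs h.T1_le h.idx1 (fun x hx => h.sqT1 hx) (fun x hx y hy => h.commT1 hx hy) ht
      (fun P hP hWP hcP htP => h.eq_T1 hP hWP hcP ht ht2 htP) hX

theorem units_eq {a b : ℤˣ} (hab : a = 1 ↔ b = 1) : a = b := by
  rcases Int.units_eq_one_or a with rfl | rfl
  · exact (hab.1 rfl).symm
  · rcases Int.units_eq_one_or b with rfl | rfl
    · exact hab.2 rfl
    · rfl

include h hS in
theorem orbA (φ : normalizer (Z : Set G) →* ℤˣ)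
    (hφ : ∀ m : normalizer (Z : Set G), (∀ z ∈ Z, ⁅(m : G), z⁆ ∈ Z1) → φ m = 1)
    (hφT : ∀ (t : G) (ht : t ∈ T), φ ⟨t, h.TNZ ht⟩ = 1 → t ∈ T1)
    (hM1 : normalizer (Z : Set G) ≤ normalizer (Z1 : Set G))
    (ω : G ⧸ normalizer (Z : Set G)) (hω : ω ≠ ((1 : G) : G ⧸ normalizer (Z : Set G))) {t : G} (ht : t ∈ T2)
    (ht1 : t ∉ T1) : VV φ (orb T ω) t = 1 := by
  have hφT' : ∀ (t : G) (ht : t ∈ T), φ ⟨t, h.TNZ ht⟩ = 1 ↔ t ∈ T1 := by
    intro t ht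
    refine ⟨hφT t ht, fun ht1 => ?_⟩
    apply hφ
    intro z hz
    exact h.T1c ht1 hz
  obtain ⟨g, rfl, hY⟩ := exists_rep S hS ω h.TNZ
  have hne := rep_ne hω
  have hst := stab_eq (Z := Z) g
  have hWs : ¬ W ≤ MulAction.stabilizer G (g : G ⧸ normalizer (Z : Set G)) := by
    rw [hst]; exact fun hle => hne (h.conjZ_of_le' S hS hle)
  by_cases hX : T2 ≤ (T ⊓ MulAction.stabilizer G (g : G ⧸ normalizer (Z : Set G))) ⊔ W
  · by_cases hc4 : 4 * Nat.card (W ⊓ MulAction.stabilizer G (g : G ⧸ normalizer (Z : Set G)) : Subgroup G) ≤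
        Nat.card W
    · apply V_of_X h φ h.T2_le h.idx2 hX _ ht
      intro x hx
      exact V_P4 φ h (XX_le h) le_sup_right hWs (XX_spec h) hc4 hx
    · have hc := card_half h hWs hc4
      have hc' := hc
      have hX' := hX
      rw [hst] at hc' hX'
      have q := mkPair h S hS hne hY hc'
      obtain ⟨s, hs, hs'⟩ := Pair.exists_s q.p
      -- general formula for the value on Y
      have hval : ∀ y ∈ T ⊓ MulAction.stabilizer G (g : G ⧸ normalizer (Z : Set G)),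
          ∃ hxM : g⁻¹ * (y⁻¹ * s⁻¹ * y * s) * g ∈ normalizer (Z : Set G),
          VV φ (orb ((T ⊓ MulAction.stabilizer G (g : G ⧸ normalizer (Z : Set G))) ⊔ W)
            (g : G ⧸ normalizer (Z : Set G))) y = φ ⟨_, hxM⟩ := by
        intro y hy
        have hy' := hy
        rw [hst] at hy'
        have hx := W1_mem q hs hs' hy'
        have hxM : g⁻¹ * (y⁻¹ * s⁻¹ * y * s) * g ∈ normalizer (Z : Set G) := by
          rw [← mem_conj_smul, conj_smul_normalizer]; exact hx.2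
        refine ⟨hxM, ?_⟩
        rw [V_P2 φ h le_sup_right (XX_spec h) hc hs (by
          rw [hst]; exact fun h1 => hs' (mem_inf.2 ⟨hs, h1⟩))
          ((le_sup_left : T ⊓ MulAction.stabilizer G _ ≤ _) hy) (mem_inf.1 hy).2]
        exact kap_fix φ g _ hxM
      rcases q.p.basic.2.2.2.2 with hT | hT
      · -- W1 W' = T1'
        apply V_of_X h φ h.T2_le h.idx2 hX _ ht
        apply V_X_one φ h hWs
        intro y hy
        have hy' := hy
        rw [hst] at hy'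
        have hx := W1_mem q hs hs' hy'
        obtain ⟨hxM, hv⟩ := hval y hy
        rw [hv]
        apply hφ
        intro z hz
        have h1 : y⁻¹ * s⁻¹ * y * s ∈ MulAut.conj g • T1 := by
          rw [← hT]; exact mem_sup_left hx
        have h2 := q.p.h'.T1c h1 (conj_mem_conj_smul hz)
        rw [mem_conj_smul] at h2
        have e : g⁻¹ * ⁅y⁻¹ * s⁻¹ * y * s, g * z * g⁻¹⁆ * g = ⁅g⁻¹ * (y⁻¹ * s⁻¹ * y * s) * g, z⁆ := by
          simp only [commutatorElement_def]; group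
        rw [e] at h2
        exact h2
      · -- W1 W' = T2'
        have hZ2 := q.Z2_eq hX' hT
        have hZ1 : MulAut.conj g • Z1 = Z1 :=
          mem_normalizer_iff_conj.1 (h.NZ2_le S hS hM1 (mem_normalizer_iff_conj.2 hZ2))
        rcases q.X_cases h.cT2 hX' with ⟨h5, -⟩ | ⟨h5, -⟩
        · -- X = T2
          have hX2 : (T ⊓ MulAction.stabilizer G (g : G ⧸ normalizer (Z : Set G))) ⊔ W = T2 := by
            rw [hst]; exact h5
          have hT2N : T2 ≤ normalizer (Z : Set G) := h.T2_le.trans h.TNZ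
          have hVφ : ∀ (x : G) (hx : x ∈ T2),
              VV φ (orb T2 (g : G ⧸ normalizer (Z : Set G))) x = φ ⟨x, hT2N hx⟩ := by
            intro x hx
            obtain ⟨w, hw, hwx⟩ := XX_spec h x (by rw [hX2]; exact hx)
            have hwT2 := h.W_le2 hw
            have hyT2 : w⁻¹ * x ∈ T2 := mul_mem (inv_mem hwT2) hx
            have hyY : w⁻¹ * x ∈ T ⊓ MulAction.stabilizer G (g : G ⧸ normalizer (Z : Set G)) :=
              mem_inf.2 ⟨h.T2_le hyT2, hwx⟩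
            have hyY' := hyY
            rw [hst] at hyY'
            have e : x = w * (w⁻¹ * x) := by group
            have e' : (⟨x, hT2N hx⟩ : normalizer (Z : Set G)) = ⟨w, hT2N hwT2⟩ * ⟨w⁻¹ * x, hT2N hyT2⟩ :=
              Subtype.ext e
            rw [e', map_mul]
            conv_lhs => rw [e]
            have hw1 : VV φ (orb T2 (g : G ⧸ normalizer (Z : Set G))) w = 1 :=
              V_PW φ h h.W_le2 hWs (by rw [← hX2]; exact XX_spec h) hw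
            have hw2 : φ ⟨w, hT2N hwT2⟩ = 1 := by
              apply hφ
              intro z hz
              show ⁅w, z⁆ ∈ Z1
              rw [h.cenc hz hw]; exact one_mem _
            rw [V_mul φ hyT2, hw1, hw2, one_mul, one_mul]
            obtain ⟨hxM, hv⟩ := hval _ hyY
            rw [hX2] at hv
            rw [hv]
            have hx0 := W1_mem q hs hs' hyY'
            have hxT : g⁻¹ * ((w⁻¹ * x)⁻¹ * s⁻¹ * (w⁻¹ * x) * s) * g ∈ T := by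
              rw [← mem_conj_smul]; exact q.p.le' hx0
            apply units_eq
            rw [hφT' _ hxT, hφT' _ (h.T2_le hyT2), ← mem_conj_smul]
            exact q.valueA hZ2 hZ1 hs hs' hyY' hx0
          have hlt : ∃ r ∈ T, r ∉ T2 := by
            obtain ⟨r, hr, hr2⟩ := h.exists_T1
            exact ⟨r, h.T1_le hr, hr2⟩
          obtain ⟨r, hr, hr2⟩ := hlt
          have h4 : T ⊓ MulAction.stabilizer G (g : G ⧸ normalizer (Z : Set G)) ≤ T2 := by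
            rw [← hX2]; exact le_sup_left
          rw [step_mem φ h.T2_le h.idx2 h4 hr hr2 ht, hVφ _ (mul_mem ht (conj_index_two h.T2_le h.idx2 hr ht))]
          have e : (⟨t * (r⁻¹ * t * r), hT2N (mul_mem ht (conj_index_two h.T2_le h.idx2 hr ht))⟩ :
              normalizer (Z : Set G)) = ⟨t, h.TNZ (h.T2_le ht)⟩ *
                (⟨r, h.TNZ hr⟩⁻¹ * ⟨t, h.TNZ (h.T2_le ht)⟩ * ⟨r, h.TNZ hr⟩) := Subtype.ext rfl
          rw [e, map_mul, map_mul, map_mul, map_inv, mul_comm (φ ⟨r, h.TNZ hr⟩)⁻¹, mul_assoc,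
            inv_mul_cancel, mul_one, sq_unit]
        · exact (q.caseA_not_T h5 hT hZ2).elim
  · exact V_T φ h hWs h.T2_le h.idx2 (fun x hx => h.sqT2 hx) (fun x hx y hy => h.commT2 hx hy) ht
      (fun P hP hWP hcP htP => h.eq_T2 hP hWP hcP ht ht1 htP) hX

/-- If all nontrivial orbits contribute 1, the transfer is nontrivial. -/
theorem no_transfer {M : Subgroup G} (φ : M →* ℤˣ) (T : Subgroup G) {t : G} (hTM : T ≤ M)
    (ht : t ∈ T) (hφt : φ ⟨t, hTM ht⟩ ≠ 1)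
    (horb : ∀ ω : G ⧸ M, ω ≠ ((1 : G) : G ⧸ M) → VV φ (orb T ω) t = 1)
    (h2 : ∀ H : Subgroup G, H.index ≠ 2) : False := by
  have h1 : VV φ Set.univ t = φ ⟨t, hTM ht⟩ := by
    have e1 : (Set.univ : Set (G ⧸ M)) = {((1 : G) : G ⧸ M)} ∪ {((1 : G) : G ⧸ M)}ᶜ := by
      rw [Set.union_compl_self]
    have e2 : VV φ Set.univ t = VV φ {((1 : G) : G ⧸ M)} t * VV φ ({((1 : G) : G ⧸ M)}ᶜ) t := by
      unfold VV
      conv_lhs => rw [e1]
      rw [finprod_mem_union disjoint_compl_right (Set.toFinite _) (Set.toFinite _)]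
    rw [e2]
    have e3 : VV φ ({((1 : G) : G ⧸ M)}ᶜ) t = 1 := by
      apply VV_eq_one_of_orb φ T t _ _ rfl
      · intro p hp x hx hcon
        apply hx
        rw [Set.mem_singleton_iff] at hcon ⊢
        have h3 : p • ((1 : G) : G ⧸ M) = ((1 : G) : G ⧸ M) := by
          rw [smul_mk_eq_iff]; simpa using hTM hp
        rw [← h3] at hcon
        exact MulAction.injective p hcon
      · intro ω hω
        exact horb ω hω
    rw [e3, mul_one]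
    unfold VV
    rw [finprod_mem_singleton, kap_fix φ 1 t (by simpa using hTM ht)]
    congr 1
    exact Subtype.ext (by simp)
  -- the kernel has index 2
  set θ : G →* ℤˣ := trans φ with hθ
  have h3 : θ t ≠ 1 := by
    have : θ t = VV φ Set.univ t := rfl
    rw [this, h1]; exact hφt
  apply h2 θ.ker
  rw [index_ker]
  have h4 : Nat.card θ.range ≤ 2 := by
    have h5 : Nat.card θ.range ≤ Nat.card ℤˣ := Nat.card_le_card_of_injective _ Subtype.val_injective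
    have h6 : Nat.card ℤˣ = 2 := by
      rw [Nat.card_eq_fintype_card]; rfl
    omega
  have h5 : Nat.card θ.range ≠ 1 := by
    intro h6
    have h7 : Subsingleton θ.range := (Nat.card_eq_one_iff_unique.1 h6).1
    apply h3
    have h8 : (⟨θ t, ⟨t, rfl⟩⟩ : θ.range) = 1 := Subsingleton.elim _ _
    exact congrArg Subtype.val h8
  have h6 : 0 < Nat.card θ.range := Nat.card_pos
  omega

end Cfsg.Agent.H309.Ru
end

-- part: H309/Ru/Sign
section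
/-!
# S3204: `N(Z)` does not normalize `Z1` or `Z2` (helper309)
-/

set_option autoImplicit false

namespace Cfsg.Agent.H309.Ru

open Subgroup Pointwise
open scoped commutatorElement

variable {G : Type*} [Group G]

theorem sign_of_swap {X : Type*} [Fintype X] [DecidableEq X] (f : Equiv.Perm X) (a b : X) (hab : a ≠ b)
    (h1 : f a = b) (h2 : f b = a) (h3 : ∀ x, x ≠ a → x ≠ b → f x = x) : Equiv.Perm.sign f = -1 := by
  have : f = Equiv.swap a b := by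
    ext x
    by_cases hxa : x = a
    · rw [hxa, h1, Equiv.swap_apply_left]
    · by_cases hxb : x = b
      · rw [hxb, h2, Equiv.swap_apply_right]
      · rw [h3 x hxa hxb, Equiv.swap_apply_of_ne_of_ne hxa hxb]
  rw [this, Equiv.Perm.sign_swap hab]

variable [Finite G] {T T1 T2 W Z4 Z Z2 Z1 : Subgroup G} (h : Hyp T T1 T2 W Z4 Z Z2 Z1)
  (S : Sylow 2 G) (hS : (S : Subgroup G) = T) (hidx : ∀ H : Subgroup G, H.index ≠ 2)
include h hS hidx

theorem not_norm2 (hM : normalizer (Z : Set G) ≤ normalizer (Z2 : Set G)) : False := by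
  classical
  letI : Fintype Z2 := Fintype.ofFinite _
  let φ : normalizer (Z : Set G) →* ℤˣ :=
    Equiv.Perm.sign.comp ((MulAut.toPerm Z2).comp ((Z2.normalizerMonoidHom).comp (inclusion hM)))
  obtain ⟨t, ht, ht2⟩ := h.exists_T1
  have htT := h.T1_le ht
  obtain ⟨z, hz, hz'⟩ := h.exists_z2
  have hc : ⁅t, z⁆ ∈ Z1 := h.c2 t htT z hz
  have hc1 : ⁅t, z⁆ ≠ 1 := fun h1 => ht2 ((h.mem2 htT hz hz').2 h1)
  have hφt : φ ⟨t, h.TNZ htT⟩ ≠ 1 := by
    have h1 : φ ⟨t, h.TNZ htT⟩ = -1 := by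
      show Equiv.Perm.sign _ = -1
      apply sign_of_swap _ (⟨z, hz⟩ : Z2) ⟨t * z * t⁻¹, h.n2 htT hz⟩
      · intro heq
        have h2 : z = t * z * t⁻¹ := congrArg Subtype.val heq
        apply hc1
        rw [commutatorElement_def, ← h2, mul_inv_cancel]
      · rfl
      · apply Subtype.ext
        show t * (t * z * t⁻¹) * t⁻¹ = z
        rw [conj_eq t z]
        have e : t * (⁅t, z⁆ * z) * t⁻¹ = (t * ⁅t, z⁆ * t⁻¹) * (t * z * t⁻¹) := by group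
        rw [e, conj_of_mul_comm (h.c1 t htT _ hc), conj_eq t z, ← mul_assoc, h.sqZ _ (h.Z1Z hc), one_mul]
      · rintro ⟨x, hx⟩ hxa hxb
        apply Subtype.ext
        show t * x * t⁻¹ = x
        rcases h.mod2 hz hz' hx with h2 | h2
        · exact conj_of_mul_comm (h.c1 t htT x h2)
        · exfalso
          rcases h.eq_z1 hc hc1 h2 with h3 | h3
          · apply hxa
            apply Subtype.ext
            exact (inv_mul_eq_one.1 h3).symm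
          · apply hxb
            apply Subtype.ext
            show x = t * z * t⁻¹
            rw [conj_eq t z, h.commZ (h.Z1Z hc) (h.Z2_le hz), ← h3]
            group
    rw [h1]; decide
  refine no_transfer φ T h.TNZ htT hφt (fun ω hω => ?_) hidx
  refine orbB h S hS φ ?_ ω hω ht ht2
  intro m hm
  have h1 : Z2.normalizerMonoidHom (inclusion hM m) = 1 := by
    ext x
    show (m : G) * x * (m : G)⁻¹ = x
    exact conj_of_mul_comm (hm x x.2)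
  show Equiv.Perm.sign (MulAut.toPerm Z2 (Z2.normalizerMonoidHom (inclusion hM m))) = 1
  rw [h1, map_one, map_one]

omit [Finite G] h hS hidx in
/-- The action of `N(Z)` on `Z / Z1`. -/
def actQ {Z Z1 : Subgroup G} (hM : normalizer (Z : Set G) ≤ normalizer (Z1 : Set G)) :
    MulAction (normalizer (Z : Set G)) (Z ⧸ Z1.subgroupOf Z) where
  smul m := Quotient.map' (fun z : Z => (⟨m * z * (m : G)⁻¹, conj_of_mem_normalizer m.2 z.2⟩ : Z)) (by
    intro a b hab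
    rw [QuotientGroup.leftRel_apply, mem_subgroupOf] at hab ⊢
    have h1 := conj_of_mem_normalizer (hM m.2) hab
    have e : ((⟨m * a * (m : G)⁻¹, conj_of_mem_normalizer m.2 a.2⟩ : Z)⁻¹ *
        (⟨m * b * (m : G)⁻¹, conj_of_mem_normalizer m.2 b.2⟩ : Z) : Z) = (m : G) * ((a⁻¹ * b : Z) : G) *
          (m : G)⁻¹ := by
      show ((m : G) * (a : G) * (m : G)⁻¹)⁻¹ * ((m : G) * (b : G) * (m : G)⁻¹) =
        (m : G) * ((a : G)⁻¹ * b) * (m : G)⁻¹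
      group
    rw [e]; exact h1)
  one_smul := by
    rintro ⟨z⟩
    show (QuotientGroup.mk _ : Z ⧸ Z1.subgroupOf Z) = QuotientGroup.mk z
    congr 1
    apply Subtype.ext
    show (1 : G) * z * (1 : G)⁻¹ = z
    group
  mul_smul := by
    rintro a b ⟨z⟩
    show (QuotientGroup.mk _ : Z ⧸ Z1.subgroupOf Z) = QuotientGroup.mk _
    congr 1
    apply Subtype.ext
    show (a * b : G) * z * (a * b : G)⁻¹ = a * (b * z * (b : G)⁻¹) * (a : G)⁻¹
    group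

theorem not_norm1 (hM : normalizer (Z : Set G) ≤ normalizer (Z1 : Set G)) : False := by
  classical
  letI := actQ hM
  letI : Fintype (Z ⧸ Z1.subgroupOf Z) := Fintype.ofFinite _
  let φ : normalizer (Z : Set G) →* ℤˣ :=
    Equiv.Perm.sign.comp (MulAction.toPermHom (normalizer (Z : Set G)) (Z ⧸ Z1.subgroupOf Z))
  have hsmul : ∀ (m : normalizer (Z : Set G)) (z : Z), m • (QuotientGroup.mk z : Z ⧸ Z1.subgroupOf Z) =
      QuotientGroup.mk ⟨m * z * (m : G)⁻¹, conj_of_mem_normalizer m.2 z.2⟩ := fun m z => rfl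
  have hmk : ∀ a b : Z, (QuotientGroup.mk a : Z ⧸ Z1.subgroupOf Z) = QuotientGroup.mk b ↔
      (a : G)⁻¹ * b ∈ Z1 := by
    intro a b
    rw [QuotientGroup.eq, mem_subgroupOf]; rfl
  have hφT : ∀ (t : G) (ht : t ∈ T), φ ⟨t, h.TNZ ht⟩ = 1 → t ∈ T1 := by
    intro t htT h1
    by_contra ht1
    obtain ⟨z, hz, hz'⟩ := h.exists_z3
    have hc : ⁅t, z⁆ ∈ Z2 := h.c3 t htT z hz
    have hc1 : ⁅t, z⁆ ∉ Z1 := fun h1 => ht1 ((h.mem1 htT hz hz').2 h1)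
    have h2 : φ ⟨t, h.TNZ htT⟩ = -1 := by
      show Equiv.Perm.sign _ = -1
      have hzc : z⁻¹ * (t * z * t⁻¹) = ⁅t, z⁆ := by
        rw [conj_eq, h.commZ (h.Z2_le hc) hz]; group
      apply sign_of_swap _ (QuotientGroup.mk (⟨z, hz⟩ : Z)) (QuotientGroup.mk ⟨t * z * t⁻¹, h.n3 htT hz⟩)
      · rw [Ne, hmk]
        intro h3
        apply hc1
        rw [← hzc]; exact h3
      · rw [MulAction.toPermHom_apply, MulAction.toPerm_apply, hsmul]
      · rw [MulAction.toPermHom_apply, MulAction.toPerm_apply, hsmul, hmk]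
        show (t * (t * z * t⁻¹) * t⁻¹)⁻¹ * z ∈ Z1
        have e : t * (t * z * t⁻¹) * t⁻¹ = ⁅t, ⁅t, z⁆⁆ * z := by
          have e1 : t * (t * z * t⁻¹) * t⁻¹ = ⁅t * t, z⁆ * z := by
            simp only [commutatorElement_def]; group
          rw [e1, comm_mul_left', mul_assoc ⁅t, ⁅t, z⁆⁆, h.sqZ _ (h.Z2_le hc), mul_one]
        rw [e]
        have h3 := h.c2 t htT _ hc
        have e2 : (⁅t, ⁅t, z⁆⁆ * z)⁻¹ * z = z⁻¹ * (⁅t, ⁅t, z⁆⁆)⁻¹ * z⁻¹⁻¹ := by group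
        rw [e2]
        exact h.n1 (inv_mem (h.ZT hz)) (inv_mem h3)
      · intro q hqa hqb
        obtain ⟨x, rfl⟩ := QuotientGroup.mk_surjective q
        rw [MulAction.toPermHom_apply, MulAction.toPerm_apply, hsmul, hmk]
        rw [Ne, hmk] at hqa hqb
        show (t * x * t⁻¹)⁻¹ * x ∈ Z1
        have e : (t * x * t⁻¹)⁻¹ * x = ((x : G)⁻¹ * ⁅t, (x : G)⁆ * (x : G)⁻¹⁻¹)⁻¹ := by
          rw [commutatorElement_def]; group
        rw [e]
        apply inv_mem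
        apply h.n1 (inv_mem (h.ZT x.2))
        rcases h.mod3 hz hz' x.2 with h3 | h3
        · exact h.c2 t htT _ h3
        · exfalso
          -- z⁻¹ x ∈ Z2; not in Z1 since q ≠ [z]; then q = [t z t⁻¹]
          have h4 : z⁻¹ * (x : G) ∉ Z1 := by
            intro h5
            apply hqa
            have e2 : (x : G)⁻¹ * z = (z⁻¹ * (x : G))⁻¹ := by group
            show (x : G)⁻¹ * z ∈ Z1
            rw [e2]; exact inv_mem h5
          have h5 : (z⁻¹ * (x : G))⁻¹ * ⁅t, z⁆ ∈ Z1 := (h.mod2 h3 h4 hc).resolve_left hc1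
          apply hqb
          show (x : G)⁻¹ * (t * z * t⁻¹) ∈ Z1
          have e2 : (x : G)⁻¹ * (t * z * t⁻¹) = (z⁻¹ * (x : G))⁻¹ * ⁅t, z⁆ := by
            rw [← hzc]; group
          rw [e2]; exact h5
    rw [h2] at h1
    exact absurd h1 (by decide)
  obtain ⟨t, ht, ht1⟩ := h.exists_T2
  refine no_transfer φ T h.TNZ (h.T2_le ht) (fun h1 => ht1 (hφT t (h.T2_le ht) h1)) (fun ω hω => ?_) hidx
  refine orbA h S hS φ ?_ hφT hM ω hω ht ht1
  intro m hm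
  show Equiv.Perm.sign (MulAction.toPermHom (normalizer (Z : Set G)) (Z ⧸ Z1.subgroupOf Z) m) = 1
  have h1 : MulAction.toPermHom (normalizer (Z : Set G)) (Z ⧸ Z1.subgroupOf Z) m = 1 := by
    ext q
    obtain ⟨x, rfl⟩ := QuotientGroup.mk_surjective q
    rw [MulAction.toPermHom_apply, MulAction.toPerm_apply, hsmul, Equiv.Perm.one_apply, hmk]
    show ((m : G) * (x : G) * (m : G)⁻¹)⁻¹ * (x : G) ∈ Z1
    have e : ((m : G) * (x : G) * (m : G)⁻¹)⁻¹ * (x : G) = ((x : G)⁻¹ * ⁅(m : G), (x : G)⁆ * (x : G)⁻¹⁻¹)⁻¹ := by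
      rw [commutatorElement_def]; group
    rw [e]
    exact inv_mem (h.n1 (inv_mem (h.ZT x.2)) (hm x x.2))
  rw [h1, map_one]

end Cfsg.Agent.H309.Ru
end

-- part: H309/Ru/Trans
section
/-!
# S3204: `N(Z)` induces all automorphisms of `Z` (helper309)
-/

set_option autoImplicit false

namespace Cfsg.Agent.H309.Ru

open Subgroup Pointwise
open scoped commutatorElement

variable {G : Type*} [Group G]

variable [Finite G] {T T1 T2 W Z4 Z Z2 Z1 : Subgroup G} (h : Hyp T T1 T2 W Z4 Z Z2 Z1)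
  (S : Sylow 2 G) (hS : (S : Subgroup G) = T) (hidx : ∀ H : Subgroup G, H.index ≠ 2)
include h

/-- `T` is transitive on `Z2 ∖ Z1`. -/
theorem T_trans2 {a b : G} (ha : a ∈ Z2) (ha' : a ∉ Z1) (hb : b ∈ Z2) (hb' : b ∉ Z1) :
    ∃ t ∈ T, t * a * t⁻¹ = b := by
  have h1 : b * a⁻¹ ∈ Z1 := mul_mem_index_two h.Z1_le (by rw [h.cZ1, h.cZ2]) hb (inv_mem ha) hb'
    (by rwa [inv_mem_iff])
  obtain ⟨t, ht, e⟩ := h.exists_comm_T1 ha ha' h1
  refine ⟨t, h.T1_le ht, ?_⟩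
  rw [conj_eq, e]; group

/-- `T` is transitive on `Z ∖ Z2`. -/
theorem T_trans3 {a b : G} (ha : a ∈ Z) (ha' : a ∉ Z2) (hb : b ∈ Z) (hb' : b ∉ Z2) :
    ∃ t ∈ T, t * a * t⁻¹ = b := by
  have h1 : b * a⁻¹ ∈ Z2 := mul_mem_index_two h.Z2_le (by rw [h.cZ2, h.cZ]) hb (inv_mem ha) hb'
    (by rwa [inv_mem_iff])
  obtain ⟨t, ht, e⟩ := h.exists_comm_T2 ha ha' h1
  refine ⟨t, h.T2_le ht, ?_⟩
  rw [conj_eq, e]; group

include hS hidx in
theorem trans_Z {c : G} (hc : c ∈ Z1) (hc1 : c ≠ 1) : ∀ z ∈ Z, z ≠ 1 →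
    ∃ m ∈ normalizer (Z : Set G), m * c * m⁻¹ = z := by
  set O : Set G := {z | ∃ m ∈ normalizer (Z : Set G), m * c * m⁻¹ = z} with hO
  have hOinv : ∀ m ∈ normalizer (Z : Set G), ∀ z ∈ O, m * z * m⁻¹ ∈ O := by
    rintro m hm _ ⟨n, hn, rfl⟩
    exact ⟨m * n, mul_mem hm hn, by group⟩
  have hOinv' : ∀ m ∈ normalizer (Z : Set G), ∀ z, m * z * m⁻¹ ∈ O → z ∈ O := by
    intro m hm z hz
    have := hOinv _ (inv_mem hm) _ hz
    have e : m⁻¹ * (m * z * m⁻¹) * m⁻¹⁻¹ = z := by group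
    rwa [e] at this
  have hOZ : ∀ z ∈ O, z ∈ Z := by
    rintro _ ⟨m, hm, rfl⟩
    exact conj_of_mem_normalizer hm (h.Z1Z hc)
  have hO1 : ∀ z ∈ O, z ≠ 1 := by
    rintro _ ⟨m, hm, rfl⟩ h1
    apply hc1
    have : c = m⁻¹ * (m * c * m⁻¹) * m := by group
    rw [this, h1]; group
  have hcO : c ∈ O := ⟨1, one_mem _, by group⟩
  have hZ1 : ∀ z ∈ Z1, z = 1 ∨ z = c := fun z hz => h.eq_z1 hc hc1 hz
  -- some element of O is outside Z1
  have hex : ∃ z ∈ O, z ∉ Z1 := by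
    by_contra hcon
    push Not at hcon
    apply not_norm1 h S hS hidx
    intro m hm
    apply mem_normalizer_of_conj
    intro z hz
    rcases hZ1 z hz with rfl | rfl
    · simp
    · exact hcon _ ⟨m, hm, rfl⟩
  have full2 : (∃ z ∈ O, z ∈ Z2 ∧ z ∉ Z1) → ∀ z ∈ Z2, z ∉ Z1 → z ∈ O := by
    rintro ⟨a, haO, ha, ha'⟩ b hb hb'
    obtain ⟨t, ht, rfl⟩ := T_trans2 h ha ha' hb hb'
    exact hOinv t (h.TNZ ht) a haO
  have full3 : (∃ z ∈ O, z ∉ Z2) → ∀ z ∈ Z, z ∉ Z2 → z ∈ O := by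
    rintro ⟨a, haO, ha'⟩ b hb hb'
    obtain ⟨t, ht, rfl⟩ := T_trans3 h (hOZ a haO) ha' hb hb'
    exact hOinv t (h.TNZ ht) a haO
  have h3 : ∃ z ∈ O, z ∉ Z2 := by
    by_contra hcon
    push Not at hcon
    obtain ⟨z, hzO, hz1⟩ := hex
    have h2 := full2 ⟨z, hzO, hcon z hzO, hz1⟩
    apply not_norm2 h S hS hidx
    intro m hm
    apply mem_normalizer_of_conj
    intro y hy
    by_cases hy1 : y ∈ Z1
    · rcases hZ1 y hy1 with rfl | rfl
      · simp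
      · exact hcon _ (hOinv m hm _ hcO)
    · exact hcon _ (hOinv m hm _ (h2 y hy hy1))
  have h2 : ∃ z ∈ O, z ∈ Z2 ∧ z ∉ Z1 := by
    by_contra hcon
    push Not at hcon
    apply not_norm1 h S hS hidx
    obtain ⟨a, ha, ha'⟩ := h.exists_z2
    -- elements of Z2 outside Z1 are mapped to elements of Z2 outside Z1
    have h4 : ∀ m ∈ normalizer (Z : Set G), ∀ y ∈ Z2, y ∉ Z1 → m * y * m⁻¹ ∈ Z2 ∧ m * y * m⁻¹ ∉ Z1 := by
      intro m hm y hy hy1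
      have hyO : y ∉ O := fun h5 => hy1 (hcon y h5 hy)
      have hmZ : m * y * m⁻¹ ∈ Z := conj_of_mem_normalizer hm (h.Z2_le hy)
      have hmO : m * y * m⁻¹ ∉ O := fun h5 => hyO (hOinv' m hm y h5)
      have h5 : m * y * m⁻¹ ∈ Z2 := by
        by_contra h6
        exact hmO (full3 h3 _ hmZ h6)
      refine ⟨h5, fun h6 => ?_⟩
      rcases hZ1 _ h6 with h7 | h7
      · apply hy1
        have : y = m⁻¹ * (m * y * m⁻¹) * m := by group
        rw [this, h7]; simp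
      · exact hmO (by rw [h7]; exact hcO)
    intro m hm
    apply mem_normalizer_of_conj
    intro y hy
    have h5 := h4 m hm a ha ha'
    have hay : a * y ∈ Z2 := mul_mem ha (h.Z1_le hy)
    have hay' : a * y ∉ Z1 := fun h6 => ha' ((mul_mem_cancel_right hy).1 h6)
    have h6 := h4 m hm _ hay hay'
    have e : m * y * m⁻¹ = (m * a * m⁻¹)⁻¹ * (m * (a * y) * m⁻¹) := by group
    rw [e]
    exact mul_mem_index_two h.Z1_le (by rw [h.cZ1, h.cZ2]) (inv_mem h5.1) h6.1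
      (by rw [inv_mem_iff]; exact h5.2) h6.2
  intro z hz hz1
  by_cases hzZ2 : z ∈ Z2
  · by_cases hzZ1 : z ∈ Z1
    · rcases hZ1 z hzZ1 with rfl | rfl
      · exact absurd rfl hz1
      · exact hcO
    · exact full2 h2 z hzZ2 hzZ1
  · exact full3 h3 z hz hzZ2

theorem cent_inf : T ⊓ centralizer (Z : Set G) = W := by
  apply le_antisymm
  · rintro x ⟨hx, hxc⟩
    exact h.memW x hx (fun z hz => (mem_centralizer_iff.1 hxc z hz).symm)
  · intro x hx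
    exact ⟨h.WT hx, mem_centralizer_iff.2 (fun z hz => (h.cen z hz x hx).symm)⟩

include hS hidx in
/-- All automorphisms of `Z` are induced by `N(Z)`. -/
theorem full_aut : Cfsg.Agent.StdL2.G23Aut.img (normalizer (Z : Set G)) Z = ⊤ := by
  have hOct : Cfsg.Agent.StdL2.G23Aut.Oct Z := ⟨h.cZ, h.sqZ⟩
  have := hOct.finite_aut
  set X := Cfsg.Agent.StdL2.G23Aut.img (normalizer (Z : Set G)) Z with hX
  apply hOct.eq_top
  · have h1 := Cfsg.Agent.StdL2.G23Aut.card_img_mul (K := T) (V := Z) h.TNZ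
    rw [cent_inf h, h.cW, h.cT] at h1
    have h2 : Cfsg.Agent.StdL2.G23Aut.img T Z ≤ X := by
      intro φ hφ
      rw [hX]
      rw [Cfsg.Agent.StdL2.G23Aut.mem_img] at hφ ⊢
      obtain ⟨k, hk, hkN, e⟩ := hφ
      exact ⟨k, hkN, hkN, e⟩
    have h3 : Nat.card (Cfsg.Agent.StdL2.G23Aut.img T Z) = 8 := by omega
    rw [← h3]
    exact card_dvd_of_le h2
  · obtain ⟨c, hc, hc1⟩ := h.exists_z1
    have horb : MulAction.orbit X (⟨c, h.Z1Z hc⟩ : Z) = {1}ᶜ := by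
      ext z
      rw [Set.mem_compl_singleton_iff, MulAction.mem_orbit_iff]
      constructor
      · rintro ⟨φ, rfl⟩ h1
        have h2 : (φ : MulAut Z) ⟨c, h.Z1Z hc⟩ = 1 := h1
        have h3 := (φ : MulAut Z).injective (h2.trans (map_one (φ : MulAut Z)).symm)
        exact hc1 (congrArg Subtype.val h3)
      · intro hz
        obtain ⟨m, hm, e⟩ := trans_Z h S hS hidx hc hc1 z z.2 (fun h1 => hz (Subtype.ext h1))
        refine ⟨⟨Z.normalizerMonoidHom ⟨m, hm⟩, ?_⟩, ?_⟩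
        · rw [hX, Cfsg.Agent.StdL2.G23Aut.mem_img]
          exact ⟨m, hm, hm, fun v => rfl⟩
        · exact Subtype.ext e
    have h1 := MulAction.index_stabilizer X (⟨c, h.Z1Z hc⟩ : Z)
    rw [horb] at h1
    have h2 : ({1}ᶜ : Set Z).ncard = 7 := by
      rw [Set.ncard_compl, Set.ncard_singleton, h.cZ]
    rw [h2] at h1
    rw [← h1]
    exact Subgroup.index_dvd_card _

end Cfsg.Agent.H309.Ru
end
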